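import Cfsg.Agent.Lib.Generators.SpWeil.Normal
import Cfsg.Agent.Lib.InvCentralizers.WeilRep
import Cfsg.Agent.Lib.CharTheory.Basic

/-!
Representations of rank one are determined by their weight and their central sign.
-/

set_option autoImplicit false
set_option linter.unusedSectionVars false
set_option linter.style.haveILetI false

namespace CfsgLib.Generators.SpWeil

open Matrix CfsgLib.InvCentralizers.SympBound CfsgLib.InvCentralizers.AbelianEigen CfsgLib.Laws
  CfsgLib.InvCentralizers.WeilRep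

variable {F : Type*} [Field F] [Fintype F] [DecidableEq F] {n : ℕ}

local notation "G" => Matrix.symplecticGroup (Fin n) F

theorem mem_of_gens {V : Type*} [AddCommGroup V] [Module ℂ V] [FiniteDimensional ℂ V]
    (ρ : Representation ℂ G V) (K : Submodule ℂ V) (hK : ∀ x ∈ gens F n, ∀ v ∈ K, ρ x v ∈ K) :
    ∀ g, ∀ v ∈ K, ρ g v ∈ K := by
  intro g
  have hg : g ∈ Subgroup.closure (gens F n) := by rw [closure_gens]; trivial
  induction hg using Subgroup.closure_induction with
  | mem x hx => exact hK x hx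
  | one => intro v hv; rwa [map_one]
  | mul x y _ _ hx hy => intro v hv; rw [map_mul]; exact hx _ (hy v hv)
  | inv x _ hx =>
    intro v hv
    have hinj : Function.Injective ((ρ x).restrict hx) := fun a b e =>
      Subtype.ext ((ρ.apply_bijective x).1 (congrArg Subtype.val e))
    obtain ⟨w, hw⟩ := LinearMap.surjective_of_injective hinj ⟨v, hv⟩
    have hw' : ρ x w = v := congrArg Subtype.val hw
    rw [← hw', ← Module.End.mul_apply, ← map_mul, inv_mul_cancel, map_one]
    exact w.2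

theorem eq_bot_or_top {V : Type*} [AddCommGroup V] [Module ℂ V]
    (ρ : Representation ℂ G V) [hρ : ρ.IsIrreducible] (K : Submodule ℂ V)
    (hK : ∀ g, ∀ v ∈ K, ρ g v ∈ K) : K = ⊥ ∨ K = ⊤ := by
  let S : Subrepresentation ρ := ⟨K, fun g v hv => hK g v hv⟩
  rcases hρ.eq_bot_or_eq_top S with h | h
  · exact Or.inl (congrArg Subrepresentation.toSubmodule h)
  · exact Or.inr (congrArg Subrepresentation.toSubmodule h)

theorem exists_sign {V : Type*} [AddCommGroup V] [Module ℂ V] [FiniteDimensional ℂ V]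
    (ρ : Representation ℂ G V) [ρ.IsIrreducible] :
    ∃ ζ : ℂ, (ζ = 1 ∨ ζ = -1) ∧ ∀ x, ρ (glSp n (-1 : GL (Fin n) F)) x = ζ • x := by
  obtain ⟨ζ, hζ⟩ := CfsgLib.CharTheory.exists_smul_of_commute ρ (ρ (glSp n (-1 : GL (Fin n) F))) fun g => by
    rw [← Module.End.mul_eq_comp, ← Module.End.mul_eq_comp, ← map_mul, ← map_mul, neg_one_central]
  have hx : ∀ x, ρ (glSp n (-1 : GL (Fin n) F)) x = ζ • x := fun x => by rw [hζ]; rfl
  refine ⟨ζ, ?_, hx⟩
  haveI := CfsgLib.CharTheory.nontrivial_of_isIrreducible ρ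
  obtain ⟨x, hx0⟩ := exists_ne (0 : V)
  have h1 : (ζ * ζ) • x = x := by
    rw [← smul_smul, ← hx x, ← map_smul, ← hx x, ← Module.End.mul_apply, ← map_mul, ← map_mul]
    simp
  exact mul_self_eq_one_iff.1 (smul_left_injective ℂ hx0 (h1.trans (one_smul ℂ x).symm))

/-- A weight of a rank one representation of dimension at least two. -/
theorem exists_weight {V : Type*} [AddCommGroup V] [Module ℂ V] [FiniteDimensional ℂ V]
    (ρ : Representation ℂ G V) [ρ.IsIrreducible] (h2 : (2 : F) ≠ 0) (hn : 0 < n) (i₀ : Fin n)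
    (hR : RankOne ρ) (hd : 2 ≤ Module.finrank ℂ V) :
    ∃ c : F, c ≠ 0 ∧ ∃ u ∈ Wt ρ c (Pi.single i₀ (1 : F)), u ≠ 0 := by
  classical
  haveI : Fintype (symMat n F) := Fintype.ofFinite _
  have hne : ∃ S : symMat n F, ρ (lower S) ≠ 1 := by
    by_contra h
    push Not at h
    have htriv := eq_one_of_lower ρ hn h
    haveI := CfsgLib.CharTheory.nontrivial_of_isIrreducible ρ
    obtain ⟨x, hx0⟩ := exists_ne (0 : V)
    have h1 := (eq_bot_or_top ρ (Submodule.span ℂ {x}) fun g v hv => by rw [htriv g]; exact hv).resolve_left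
      (by simpa using hx0)
    have h3 := congrArg (fun K : Submodule ℂ V => Module.finrank ℂ K) h1
    simp only [finrank_top, finrank_span_singleton hx0] at h3
    omega
  obtain ⟨B, hB0, w, hw, hw0⟩ := exists_eig (setup ρ h2) hne
  obtain ⟨c, z, hcz⟩ := hR B w hw hw0
  have hc : c ≠ 0 := fun e => hB0 (Subtype.ext (by rw [hcz, e, zero_smul]; rfl))
  have hz : z ≠ 0 := fun e => hB0 (Subtype.ext (by rw [hcz, e]; simp))
  have hw' : w ∈ Wt ρ c z := by
    have hB : B = outer c z := Subtype.ext hcz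
    rw [hB] at hw
    exact hw
  obtain ⟨A, hA⟩ := exists_GL_mulVec hz (by simp : (Pi.single i₀ 1 : Fin n → F) ≠ 0)
  refine ⟨c, hc, ρ (glSp n A) w, ?_, fun e => hw0 ((ρ.apply_bijective _).1 (e.trans (map_zero _).symm))⟩
  have h1 := glSp_Wt ρ A hw'
  rwa [hA] at h1

/-- Weights may be rescaled by squares. -/
theorem exists_weight_of_square {V : Type*} [AddCommGroup V] [Module ℂ V]
    (ρ : Representation ℂ G V) (i₀ : Fin n) {c b : F} (hb : b ≠ 0) {u : V}
    (hu : u ∈ Wt ρ (c * (b * b)) (Pi.single i₀ (1 : F))) (hu0 : u ≠ 0) :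
    ∃ u' ∈ Wt ρ c (Pi.single i₀ (1 : F)), u' ≠ 0 := by
  refine ⟨ρ (glSp n (dgl i₀ (Units.mk0 b hb)⁻¹)) u, ?_,
    fun e => hu0 ((ρ.apply_bijective _).1 (e.trans (map_zero _).symm))⟩
  have h1 : u ∈ Wt ρ c (Pi.single i₀ b) := by
    rw [mem_Wt] at hu ⊢
    intro S
    rw [hu S]
    congr 2
    simp only [qval, mulVec_single, dotProduct_smul, single_dotProduct, Pi.smul_apply, smul_eq_mul,
      op_smul_eq_smul, Matrix.col_apply]
    ring
  have h3 := glSp_Wt ρ (dgl i₀ (Units.mk0 b hb)⁻¹) h1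
  rwa [dgl_mulVec, Pi.single_eq_same, Units.val_inv_eq_inv_val, Units.val_mk0, inv_mul_cancel₀ hb,
    show Function.update (Pi.single i₀ b : Fin n → F) i₀ 1 = Pi.single i₀ 1 from by
      funext l; rcases eq_or_ne l i₀ with rfl | hl <;> simp [*]] at h3

theorem NormalForm.map_mem {V : Type*} [AddCommGroup V] [Module ℂ V] [FiniteDimensional ℂ V]
    {ρ : Representation ℂ G V} {c : F} {ε : ℂ} (N : NormalForm ρ c ε) :
    ∀ (g : G) (x : V), x ∈ Submodule.span ℂ (Set.range N.vec) → ρ g x ∈ Submodule.span ℂ (Set.range N.vec) := by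
  refine mem_of_gens ρ _ fun g hg x hx => ?_
  induction hx using Submodule.span_induction with
  | zero => simp
  | add a b _ _ ha hb => rw [map_add]; exact add_mem ha hb
  | smul a y _ hy => rw [map_smul]; exact Submodule.smul_mem _ _ hy
  | mem y hy =>
    obtain ⟨z, rfl⟩ := hy
    rcases hg with (⟨S, rfl⟩ | ⟨A, rfl⟩) | ⟨k, rfl⟩
    · rw [N.lower_vec]; exact Submodule.smul_mem _ _ (Submodule.subset_span ⟨_, rfl⟩)
    · rw [N.glSp_vec]; exact Submodule.smul_mem _ _ (Submodule.subset_span ⟨_, rfl⟩)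
    · rw [N.wk_vec]
      exact Submodule.smul_mem _ _ (Submodule.sum_mem _ fun s _ =>
        Submodule.smul_mem _ _ (Submodule.subset_span ⟨_, rfl⟩))

theorem finrank_span_le (h2 : (2 : F) ≠ 0) {W : Type*} [AddCommGroup W] [Module ℂ W]
    (f : (Fin n → F) → W) (ε : ℂ) (hf : ∀ z, f (-z) = ε • f z) :
    2 * Module.finrank ℂ (Submodule.span ℂ (Set.range f)) ≤ Fintype.card F ^ n + 1 := by
  classical
  set T := insert (0 : Fin n → F) (reps F n)
  have h1 : Submodule.span ℂ (Set.range f) ≤ Submodule.span ℂ ((T.image f : Finset W) : Set W) := by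
    rw [Submodule.span_le]
    rintro _ ⟨z, rfl⟩
    rcases eq_or_ne z 0 with rfl | hz
    · exact Submodule.subset_span (Finset.mem_image_of_mem f (Finset.mem_insert_self _ _))
    · rcases mem_reps_or h2 hz with h | h
      · exact Submodule.subset_span (Finset.mem_image_of_mem f (Finset.mem_insert_of_mem h))
      · have h' := hf (-z)
        rw [neg_neg] at h'
        rw [h']
        exact Submodule.smul_mem _ _
          (Submodule.subset_span (Finset.mem_image_of_mem f (Finset.mem_insert_of_mem h)))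
  haveI : FiniteDimensional ℂ (Submodule.span ℂ ((T.image f : Finset W) : Set W)) :=
    FiniteDimensional.span_of_finite ℂ (Finset.finite_toSet _)
  have h3 := ((Submodule.finrank_mono h1).trans (finrank_span_finset_le_card _)).trans
    (Finset.card_image_le.trans (Finset.card_insert_le _ _))
  have h4 := card_reps (n := n) h2
  omega

/-- The degree of an irreducible representation of rank one. -/
theorem degree_bounds {V : Type*} [AddCommGroup V] [Module ℂ V] [FiniteDimensional ℂ V]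
    (ρ : Representation ℂ G V) [ρ.IsIrreducible] (h2 : (2 : F) ≠ 0) (hn : 2 ≤ n) (hR : RankOne ρ)
    {c : F} (hc : c ≠ 0) (i₀ : Fin n) {u : V} (hu : u ∈ Wt ρ c (Pi.single i₀ (1 : F))) (hu0 : u ≠ 0) :
    Fintype.card F ^ n - 1 ≤ 2 * Module.finrank ℂ V ∧ 2 * Module.finrank ℂ V ≤ Fintype.card F ^ n + 1 := by
  constructor
  · by_contra h
    push Not at h
    have h1 := eq_one_of_finrank_lt ρ (show 0 < n by omega) h2 h
    obtain ⟨r, hr⟩ := exists_psi_ne (F := F) hc
    refine hr ?_
    have h3 := mem_Wt ρ |>.1 hu (dsym i₀ r)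
    rw [h1, Module.End.one_apply, qval_dsym, Pi.single_eq_same, mul_one, mul_one] at h3
    exact smul_left_injective ℂ hu0 (h3.symm.trans (one_smul ℂ u).symm)
  · obtain ⟨ζ, -, hζ⟩ := exists_sign ρ
    obtain ⟨N, hN⟩ := exists_normalForm ρ h2 hn hR hc i₀ hu hζ
    have h1 := (eq_bot_or_top ρ _ N.map_mem).resolve_left (fun e => hu0 (by
      rw [Submodule.span_eq_bot] at e
      rw [← hN]; exact e _ ⟨_, rfl⟩))
    have h3 := finrank_span_le h2 N.vec _ N.neg_vec
    rwa [h1, finrank_top] at h3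

/-- Rank one representations with the same weight and central sign have the same character. -/
theorem character_eq {V V' : Type*} [AddCommGroup V] [Module ℂ V] [FiniteDimensional ℂ V]
    [AddCommGroup V'] [Module ℂ V'] [FiniteDimensional ℂ V']
    (ρ : Representation ℂ G V) (ρ' : Representation ℂ G V') [ρ.IsIrreducible] [ρ'.IsIrreducible]
    (h2 : (2 : F) ≠ 0) (hn : 2 ≤ n) (hR : RankOne ρ) (hR' : RankOne ρ') {c : F} (hc : c ≠ 0) (i₀ : Fin n)
    {u : V} (hu : u ∈ Wt ρ c (Pi.single i₀ (1 : F))) (hu0 : u ≠ 0)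
    {u' : V'} (hu' : u' ∈ Wt ρ' c (Pi.single i₀ (1 : F))) (hu0' : u' ≠ 0)
    {ζ : ℂ} (hζ : ∀ x, ρ (glSp n (-1 : GL (Fin n) F)) x = ζ • x)
    (hζ' : ∀ x, ρ' (glSp n (-1 : GL (Fin n) F)) x = ζ • x) : ρ.character = ρ'.character := by
  classical
  have hdeg := (degree_bounds ρ h2 hn hR hc i₀ hu hu0).1
  have hdeg' := (degree_bounds ρ' h2 hn hR' hc i₀ hu' hu0').1
  obtain ⟨N, hN⟩ := exists_normalForm ρ h2 hn hR hc i₀ hu hζ
  obtain ⟨N', hN'⟩ := exists_normalForm ρ' h2 hn hR' hc i₀ hu' hζ'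
  let f : (Fin n → F) → V × V' := fun z => (N.vec z, N'.vec z)
  let σ : Representation ℂ G (V × V') :=
    { toFun := fun g => (ρ g).prodMap (ρ' g)
      map_one' := by ext x <;> simp
      map_mul' := fun g h => by ext x <;> simp }
  let P : NormalForm σ c (eta F (-1) ^ n * ζ) :=
    { vec := f
      lower_vec := fun S z => Prod.ext (N.lower_vec S z) (N'.lower_vec S z)
      glSp_vec := fun A z => Prod.ext (N.glSp_vec A z) (N'.glSp_vec A z)
      wk_vec := fun k z => by
        refine Prod.ext ?_ ?_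
        · simpa [σ, f, Prod.fst_sum] using N.wk_vec k z
        · simpa [σ, f, Prod.snd_sum] using N'.wk_vec k z
      neg_vec := fun z => Prod.ext (N.neg_vec z) (N'.neg_vec z) }
  set K := Submodule.span ℂ (Set.range f)
  have hKinv : ∀ g, ∀ x ∈ K, σ g x ∈ K := P.map_mem
  have hfst : K.map (LinearMap.fst ℂ V V') = ⊤ := by
    refine (eq_bot_or_top ρ _ ?_).resolve_left ?_
    · rintro g _ ⟨x, hx, rfl⟩
      exact ⟨σ g x, hKinv g x hx, rfl⟩
    · intro e
      refine hu0 ?_
      have : N.vec (Pi.single i₀ 1) ∈ K.map (LinearMap.fst ℂ V V') :=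
        ⟨f _, Submodule.subset_span ⟨_, rfl⟩, rfl⟩
      rwa [e, Submodule.mem_bot, hN] at this
  have hsnd : K.map (LinearMap.snd ℂ V V') = ⊤ := by
    refine (eq_bot_or_top ρ' _ ?_).resolve_left ?_
    · rintro g _ ⟨x, hx, rfl⟩
      exact ⟨σ g x, hKinv g x hx, rfl⟩
    · intro e
      refine hu0' ?_
      have : N'.vec (Pi.single i₀ 1) ∈ K.map (LinearMap.snd ℂ V V') :=
        ⟨f _, Submodule.subset_span ⟨_, rfl⟩, rfl⟩
      rwa [e, Submodule.mem_bot, hN'] at this
  have hbig : ¬ (⊤ : Submodule ℂ (V × V')) ≤ K := by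
    intro h
    have h1 := finrank_span_le h2 f _ P.neg_vec
    rw [show Submodule.span ℂ (Set.range f) = ⊤ from top_le_iff.1 h, finrank_top, Module.finrank_prod] at h1
    have h9 : 9 ≤ Fintype.card F ^ n := by
      have : 3 ≤ Fintype.card F := by
        by_contra h3
        have := Fintype.one_lt_card (α := F)
        have hc2 : Fintype.card F = 2 := by omega
        have h0 := FiniteField.cast_card_eq_zero F
        rw [hc2] at h0
        exact h2 (by exact_mod_cast h0)
      exact le_trans (by nlinarith : 9 ≤ Fintype.card F ^ 2) (Nat.pow_le_pow_right (by omega) hn)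
    omega
  have hker₁ : ∀ y : V', ((0 : V), y) ∈ K → y = 0 := by
    intro y hy
    have h := (eq_bot_or_top ρ' (K.comap (LinearMap.inr ℂ V V')) fun g x hx => by
      have := hKinv g _ hx
      simpa [σ] using this).resolve_right fun e => hbig fun x _ => by
        obtain ⟨z, hz, hz'⟩ : x.1 ∈ K.map (LinearMap.fst ℂ V V') := by rw [hfst]; trivial
        have h3 : x.2 - z.2 ∈ K.comap (LinearMap.inr ℂ V V') := by rw [e]; trivial
        have := add_mem hz h3
        rwa [show z + LinearMap.inr ℂ V V' (x.2 - z.2) = x from Prod.ext (by simpa using hz') (by simp)] at this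
    exact (Submodule.mem_bot ℂ).1 (h ▸ (hy : y ∈ K.comap (LinearMap.inr ℂ V V')))
  have hker₂ : ∀ y : V, (y, (0 : V')) ∈ K → y = 0 := by
    intro y hy
    have h := (eq_bot_or_top ρ (K.comap (LinearMap.inl ℂ V V')) fun g x hx => by
      have := hKinv g _ hx
      simpa [σ] using this).resolve_right fun e => hbig fun x _ => by
        obtain ⟨z, hz, hz'⟩ : x.2 ∈ K.map (LinearMap.snd ℂ V V') := by rw [hsnd]; trivial
        have h3 : x.1 - z.1 ∈ K.comap (LinearMap.inl ℂ V V') := by rw [e]; trivial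
        have := add_mem hz h3
        rwa [show z + LinearMap.inl ℂ V V' (x.1 - z.1) = x from Prod.ext (by simp) (by simpa using hz')] at this
    exact (Submodule.mem_bot ℂ).1 (h ▸ (hy : y ∈ K.comap (LinearMap.inl ℂ V V')))
  let p : K →ₗ[ℂ] V := (LinearMap.fst ℂ V V').comp K.subtype
  let q : K →ₗ[ℂ] V' := (LinearMap.snd ℂ V V').comp K.subtype
  have hp : Function.Bijective p := by
    refine ⟨(injective_iff_map_eq_zero p).2 fun x hx => ?_, fun y => ?_⟩
    · obtain ⟨⟨a, b⟩, hab⟩ := x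
      obtain rfl : a = 0 := hx
      obtain rfl : b = 0 := hker₁ b hab
      rfl
    · obtain ⟨z, hz, hz'⟩ : y ∈ K.map (LinearMap.fst ℂ V V') := by rw [hfst]; trivial
      exact ⟨⟨z, hz⟩, hz'⟩
  have hq : Function.Bijective q := by
    refine ⟨(injective_iff_map_eq_zero q).2 fun x hx => ?_, fun y => ?_⟩
    · obtain ⟨⟨a, b⟩, hab⟩ := x
      obtain rfl : b = 0 := hx
      obtain rfl : a = 0 := hker₂ a hab
      rfl
    · obtain ⟨z, hz, hz'⟩ : y ∈ K.map (LinearMap.snd ℂ V V') := by rw [hsnd]; trivial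
      exact ⟨⟨z, hz⟩, hz'⟩
  let ep := LinearEquiv.ofBijective p hp
  let eq' := LinearEquiv.ofBijective q hq
  refine Representation.char_iso (Representation.Equiv.mk (ep.symm.trans eq') fun g => LinearMap.ext fun x => ?_)
  obtain ⟨y, rfl⟩ := ep.surjective x
  have h1 : ρ g (ep y) = ep ⟨σ g y, hKinv g y y.2⟩ := rfl
  simp only [LinearMap.comp_apply, LinearEquiv.coe_coe, LinearEquiv.trans_apply, h1, LinearEquiv.symm_apply_apply]
  rfl

end CfsgLib.Generators.SpWeil
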