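import Cfsg.Agent.Lib.InvCentralizers.SympBound

/-!
Elements of `Sp_2n` used for the classification of the representations of rank one:
the lower unipotent group, the Levi factor, the elementary Weyl elements, and their relations.
-/

set_option autoImplicit false
set_option linter.unusedSectionVars false

namespace CfsgLib.Generators.SpWeil

open Matrix CfsgLib.InvCentralizers.SympBound CfsgLib.Laws

variable {F : Type*} [Field F] {n : ℕ}

local notation "G" => Matrix.symplecticGroup (Fin n) F

/-- The natural action. -/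
def act (g : G) (v : Fin n ⊕ Fin n → F) : Fin n ⊕ Fin n → F :=
  (g : Matrix (Fin n ⊕ Fin n) (Fin n ⊕ Fin n) F) *ᵥ v

theorem act_mul (g h : G) (v : Fin n ⊕ Fin n → F) : act (g * h) v = act g (act h v) := by
  simp [act, mulVec_mulVec]

theorem act_one (v : Fin n ⊕ Fin n → F) : act 1 v = v := by simp [act]

theorem sp_ext {g h : G} (H : ∀ x y, act g (Sum.elim x y) = act h (Sum.elim x y)) : g = h := by
  refine Subtype.ext (Matrix.ext_of_mulVec_single fun a => ?_)
  have := H ((Pi.single a 1 : Fin n ⊕ Fin n → F) ∘ Sum.inl) ((Pi.single a 1 : Fin n ⊕ Fin n → F) ∘ Sum.inr)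
  rwa [Sum.elim_comp_inl_inr] at this

theorem act_lower (S : symMat n F) (x y : Fin n → F) :
    act (lower S) (Sum.elim x y) = Sum.elim x ((S : Matrix (Fin n) (Fin n) F) *ᵥ x + y) := by
  simp [act, lower, fromBlocks_mulVec]

theorem act_glSp (A : GL (Fin n) F) (x y : Fin n → F) :
    act (glSp n A) (Sum.elim x y) = Sum.elim ((A : Matrix (Fin n) (Fin n) F) *ᵥ x)
      (((A⁻¹ : GL (Fin n) F) : Matrix (Fin n) (Fin n) F)ᵀ *ᵥ y) := by
  simp [act, glSp, doubleHom, fromBlocks_mulVec]

/-- The upper unipotent matrix of a symmetric matrix. -/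
def upper (S : symMat n F) : G :=
  ⟨fromBlocks 1 (S : Matrix (Fin n) (Fin n) F) 0 1, by
    rw [SymplecticGroup.mem_iff]
    simp [Matrix.J, fromBlocks_transpose, fromBlocks_multiply, transpose_coe]⟩

theorem act_upper (S : symMat n F) (x y : Fin n → F) :
    act (upper S) (Sum.elim x y) = Sum.elim (x + (S : Matrix (Fin n) (Fin n) F) *ᵥ y) y := by
  simp [act, upper, fromBlocks_mulVec]

/-- A diagonal symmetric matrix with one entry. -/
def dsym (k : Fin n) (a : F) : symMat n F := ⟨Matrix.single k k a, transpose_single _ _ _⟩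

/-- An off-diagonal symmetric matrix. -/
def offd (i k : Fin n) (r : F) : symMat n F :=
  ⟨Matrix.single i k r + Matrix.single k i r, show _ = _ by
    rw [transpose_add, transpose_single, transpose_single, add_comm]⟩

theorem dsym_mulVec (k : Fin n) (a : F) (x : Fin n → F) :
    (dsym k a : Matrix (Fin n) (Fin n) F) *ᵥ x = Pi.single k (a * x k) := by
  funext l
  rcases eq_or_ne l k with rfl | h
  · simp [dsym, mulVec, dotProduct, Matrix.single_apply]
  · simp [dsym, mulVec, dotProduct, Matrix.single_apply, h, Ne.symm h]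

theorem single_mulVec' (i k : Fin n) (a : F) (x : Fin n → F) :
    Matrix.single i k a *ᵥ x = Pi.single i (a * x k) := by
  funext l
  rcases eq_or_ne l i with rfl | h
  · simp [mulVec, dotProduct, Matrix.single_apply]
  · simp [mulVec, dotProduct, h, Ne.symm h]

theorem offd_mulVec (i k : Fin n) (r : F) (x : Fin n → F) :
    (offd i k r : Matrix (Fin n) (Fin n) F) *ᵥ x = Pi.single i (r * x k) + Pi.single k (r * x i) := by
  simp [offd, add_mulVec, single_mulVec']

theorem qval_dsym (k : Fin n) (a : F) (z : Fin n → F) : qval (dsym k a) z = a * (z k * z k) := by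
  rw [qval, dsym_mulVec, dotProduct_single]; ring

theorem qval_offd (i k : Fin n) (r : F) (z : Fin n → F) : qval (offd i k r) z = 2 * (r * (z i * z k)) := by
  rw [qval, offd_mulVec, dotProduct_add, dotProduct_single, dotProduct_single]; ring

/-- The transvection as an element of `GL`. -/
def tv {a b : Fin n} (h : a ≠ b) (r : F) : GL (Fin n) F where
  val := Matrix.transvection a b r
  inv := Matrix.transvection a b (-r)
  val_inv := by rw [transvection_mul_transvection_same _ _ h, add_neg_cancel, transvection_zero]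
  inv_val := by rw [transvection_mul_transvection_same _ _ h, neg_add_cancel, transvection_zero]

theorem tv_mulVec {a b : Fin n} (h : a ≠ b) (r : F) (x : Fin n → F) :
    (tv h r : Matrix (Fin n) (Fin n) F) *ᵥ x = x + Pi.single a (r * x b) := by
  simp [tv, Matrix.transvection, add_mulVec, single_mulVec']

theorem tv_inv_transpose_mulVec {a b : Fin n} (h : a ≠ b) (r : F) (x : Fin n → F) :
    (((tv h r)⁻¹ : GL (Fin n) F) : Matrix (Fin n) (Fin n) F)ᵀ *ᵥ x = x + Pi.single b (-r * x a) := by
  show (Matrix.transvection a b (-r))ᵀ *ᵥ x = _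
  rw [Matrix.transvection, transpose_add, transpose_one, transpose_single, add_mulVec, one_mulVec,
    single_mulVec']

theorem tv_zero {a b : Fin n} (h : a ≠ b) : tv h (0 : F) = 1 :=
  Units.ext (by simp [tv])

theorem tv_mul {a b : Fin n} (h : a ≠ b) (r s : F) : tv h r * tv h s = tv h (r + s) :=
  Units.ext (by simp [tv, transvection_mul_transvection_same _ _ h])

theorem det_tv {a b : Fin n} (h : a ≠ b) (r : F) : (tv h r : Matrix (Fin n) (Fin n) F).det = 1 := by
  simp [tv, det_transvection_of_ne _ _ h]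

/-- The diagonal element with one entry `b`. -/
def dgl (k : Fin n) (b : Fˣ) : GL (Fin n) F where
  val := diagonal (Function.update 1 k (b : F))
  inv := diagonal (Function.update 1 k ((b⁻¹ : Fˣ) : F))
  val_inv := by
    rw [diagonal_mul_diagonal, ← diagonal_one]
    congr 1; funext l
    rcases eq_or_ne l k with rfl | h
    · simp
    · simp [h]
  inv_val := by
    rw [diagonal_mul_diagonal, ← diagonal_one]
    congr 1; funext l
    rcases eq_or_ne l k with rfl | h
    · simp
    · simp [h]

theorem dgl_mulVec (k : Fin n) (b : Fˣ) (x : Fin n → F) :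
    (dgl k b : Matrix (Fin n) (Fin n) F) *ᵥ x = Function.update x k ((b : F) * x k) := by
  funext l
  rcases eq_or_ne l k with rfl | h
  · simp [dgl, mulVec_diagonal]
  · simp [dgl, mulVec_diagonal, h]

theorem dgl_inv_transpose_mulVec (k : Fin n) (b : Fˣ) (x : Fin n → F) :
    (((dgl k b)⁻¹ : GL (Fin n) F) : Matrix (Fin n) (Fin n) F)ᵀ *ᵥ x =
      Function.update x k (((b⁻¹ : Fˣ) : F) * x k) := by
  show (diagonal (Function.update 1 k ((b⁻¹ : Fˣ) : F)))ᵀ *ᵥ x = _
  funext l
  rcases eq_or_ne l k with rfl | h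
  · simp [diagonal_transpose, mulVec_diagonal]
  · simp [diagonal_transpose, mulVec_diagonal, h]

theorem det_dgl (k : Fin n) (b : Fˣ) : (dgl k b : Matrix (Fin n) (Fin n) F).det = b := by
  simp [dgl, det_diagonal, Finset.prod_update_of_mem]

theorem dgl_one (k : Fin n) : dgl k (1 : Fˣ) = 1 :=
  Units.ext (by simp [dgl, ← diagonal_one])

/-- The elementary Weyl element `(x_k, y_k) ↦ (-y_k, x_k)`. -/
def wk (k : Fin n) : G := upper (dsym k (-1)) * lower (dsym k 1) * upper (dsym k (-1))

theorem act_wk (k : Fin n) (x y : Fin n → F) :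
    act (wk k) (Sum.elim x y) = Sum.elim (Function.update x k (-y k)) (Function.update y k (x k)) := by
  simp only [wk, act_mul, act_upper, act_lower, dsym_mulVec]
  congr 1 <;> funext l <;> rcases eq_or_ne l k with rfl | h <;> simp [*]

theorem wk_comm_lower {k : Fin n} {S : symMat n F} (h : ∀ l, (S : Matrix (Fin n) (Fin n) F) k l = 0) :
    wk k * lower S = lower S * wk k := by
  refine sp_ext fun x y => ?_
  simp only [act_mul, act_lower, act_wk]
  have hrow : ∀ u, ((S : Matrix (Fin n) (Fin n) F) *ᵥ u) k = 0 := fun u => by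
    simp [mulVec, dotProduct, h]
  have hcol : ∀ u a, (S : Matrix (Fin n) (Fin n) F) *ᵥ Function.update u k a =
      (S : Matrix (Fin n) (Fin n) F) *ᵥ u := fun u a => by
    funext l
    simp only [mulVec, dotProduct]
    refine Finset.sum_congr rfl fun m _ => ?_
    rcases eq_or_ne m k with rfl | hm
    · rw [symMat_apply S l m, h]; simp
    · simp [hm]
  congr 1
  · simp [hrow]
  · rw [hcol]
    funext l
    rcases eq_or_ne l k with rfl | hl
    · simp [hrow]
    · simp [hl]

theorem wk_comm_dgl {k a : Fin n} (h : a ≠ k) (b : Fˣ) :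
    wk k * glSp n (dgl a b) = glSp n (dgl a b) * wk k := by
  refine sp_ext fun x y => ?_
  simp only [act_mul, act_glSp, act_wk, dgl_mulVec, dgl_inv_transpose_mulVec]
  congr 1 <;> funext l <;> rcases eq_or_ne l k with rfl | hl <;> rcases eq_or_ne l a with rfl | hl' <;>
    simp_all [Ne.symm h]

theorem wk_comm_tv {k a b : Fin n} (hab : a ≠ b) (ha : a ≠ k) (hb : b ≠ k) (r : F) :
    wk k * glSp n (tv hab r) = glSp n (tv hab r) * wk k := by
  refine sp_ext fun x y => ?_
  simp only [act_mul, act_glSp, act_wk, tv_mulVec, tv_inv_transpose_mulVec]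
  congr 1 <;> funext l <;> rcases eq_or_ne l k with rfl | hl <;>
    simp [*, Ne.symm ha, Ne.symm hb, Pi.single_apply]

theorem wk_mul_tv {i k : Fin n} (hki : k ≠ i) (r : F) :
    wk k * glSp n (tv hki r) = lower (offd i k r) * wk k := by
  refine sp_ext fun x y => ?_
  simp only [act_mul, act_glSp, act_wk, act_lower, tv_mulVec, tv_inv_transpose_mulVec, offd_mulVec]
  congr 1 <;> funext l <;> rcases eq_or_ne l k with rfl | hl <;>
    simp [*, Ne.symm hki, Pi.single_apply] <;> (try split_ifs) <;> ring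

theorem wk_mul_offd {i k : Fin n} (hki : k ≠ i) (r : F) :
    wk k * lower (offd i k r) = glSp n (tv hki (-r)) * wk k := by
  refine sp_ext fun x y => ?_
  simp only [act_mul, act_glSp, act_wk, act_lower, tv_mulVec, tv_inv_transpose_mulVec, offd_mulVec]
  congr 1 <;> funext l <;> rcases eq_or_ne l k with rfl | hl <;>
    simp [*, Ne.symm hki, Pi.single_apply] <;> (try split_ifs) <;> ring

theorem wk_sq (k : Fin n) : (wk k : G) * wk k = glSp n (dgl k (-1)) := by
  refine sp_ext fun x y => ?_
  simp only [act_mul, act_glSp, act_wk, dgl_mulVec, dgl_inv_transpose_mulVec]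
  congr 1 <;> funext l <;> rcases eq_or_ne l k with rfl | hl <;> simp [*]

theorem wk_braid (k : Fin n) {a : F} (ha : a ≠ 0) (b : Fˣ) (hb : (b : F) = -a⁻¹) :
    lower (dsym k a⁻¹) * wk k * lower (dsym k a) * wk k =
      wk k * lower (dsym k (-a)) * glSp n (dgl k b) := by
  have hb' : ((b⁻¹ : Fˣ) : F) = -a := by
    rw [Units.val_inv_eq_inv_val, hb, inv_neg, inv_inv]
  refine sp_ext fun x y => ?_
  simp only [act_mul, act_glSp, act_wk, act_lower, dsym_mulVec, dgl_mulVec, dgl_inv_transpose_mulVec,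
    hb, hb']
  congr 1 <;> funext l <;> rcases eq_or_ne l k with rfl | hl <;> simp [*] <;> field_simp <;> ring

theorem wk_comm_wk {j k : Fin n} (h : j ≠ k) : (wk j : G) * wk k = wk k * wk j := by
  refine sp_ext fun x y => ?_
  simp only [act_mul, act_wk]
  congr 1 <;> funext l <;> rcases eq_or_ne l k with rfl | hl <;> rcases eq_or_ne l j with rfl | hl' <;>
    simp_all [Ne.symm h]

theorem coe_glSp_neg_one : ((glSp n (-1 : GL (Fin n) F) : G) : Matrix (Fin n ⊕ Fin n) (Fin n ⊕ Fin n) F) = -1 := by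
  show fromBlocks _ 0 0 _ = _
  rw [show (((-1 : GL (Fin n) F))⁻¹ : GL (Fin n) F) = -1 by simp]
  simp [← fromBlocks_one, fromBlocks_neg, transpose_neg]

theorem neg_one_central (g : G) : glSp n (-1 : GL (Fin n) F) * g = g * glSp n (-1 : GL (Fin n) F) :=
  Subtype.ext (by
    show ((glSp n (-1 : GL (Fin n) F) : G) : Matrix (Fin n ⊕ Fin n) (Fin n ⊕ Fin n) F) * _ = _ * _
    rw [coe_glSp_neg_one, neg_one_mul, mul_neg_one])

/-- Prescribed value of a symmetric matrix at a nonzero vector. -/
theorem exists_sym_mulVec {x : Fin n → F} (hx : x ≠ 0) (y : Fin n → F) :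
    ∃ S : symMat n F, (S : Matrix (Fin n) (Fin n) F) *ᵥ x = y := by
  obtain ⟨k, hk⟩ := Function.ne_iff.1 hx
  simp only [Pi.zero_apply] at hk
  let φ : Fin n → F := Pi.single k (x k)⁻¹
  have hφ : φ ⬝ᵥ x = 1 := by simp [φ, hk]
  refine ⟨⟨vecMulVec y φ + vecMulVec φ y - (y ⬝ᵥ x) • vecMulVec φ φ, show _ = _ by
    rw [transpose_sub, transpose_add, transpose_smul, transpose_vecMulVec, transpose_vecMulVec,
      transpose_vecMulVec]; abel⟩, ?_⟩
  simp [sub_mulVec, add_mulVec, smul_mulVec, vecMulVec_mulVec, hφ]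

theorem transvection_eq_lower (i : Fin n) (c : F) :
    ((lower (dsym i (-c)) : G) : Matrix (Fin n ⊕ Fin n) (Fin n ⊕ Fin n) F) =
      Cfsg.sympTransvection n (Pi.single (Sum.inr i) 1) c := by
  ext (a | a) (b | b) <;>
    simp [lower, dsym, Cfsg.sympTransvection, vecMulVec, Matrix.J, fromBlocks, Matrix.one_apply,
      Matrix.single_apply, Pi.single_apply, mulVec, dotProduct] <;> grind

variable (F n) in
/-- The generators. -/
def gens : Set G :=
  Set.range lower ∪ Set.range (glSp n) ∪ Set.range wk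

theorem closure_gens : Subgroup.closure (gens F n) = ⊤ := by
  classical
  set H := Subgroup.closure (gens F n)
  have hl : ∀ S, lower S ∈ H := fun S => Subgroup.subset_closure (Or.inl (Or.inl ⟨S, rfl⟩))
  have hg : ∀ A, glSp n A ∈ H := fun A => Subgroup.subset_closure (Or.inl (Or.inr ⟨A, rfl⟩))
  have hw : ∀ k, wk k ∈ H := fun k => Subgroup.subset_closure (Or.inr ⟨k, rfl⟩)
  rcases Nat.eq_zero_or_pos n with hn | hn
  · subst hn
    refine (Subgroup.eq_top_iff' _).2 fun g => ?_
    rw [show g = 1 from Subtype.ext (Matrix.ext fun a => isEmptyElim a)]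
    exact one_mem _
  let i₀ : Fin n := ⟨0, hn⟩
  rw [eq_top_iff, ← CfsgLib.Forms.closure_sympTransvection, Subgroup.closure_le]
  rintro T ⟨v, c, hT⟩
  rcases eq_or_ne v 0 with rfl | hv
  · rw [show T = 1 from Subtype.ext (hT.trans (by simp [Cfsg.sympTransvection]))]
    exact one_mem _
  obtain ⟨h, hh, he⟩ : ∃ h ∈ H, act h (Pi.single (Sum.inr i₀) 1) = v := by
    have he : (Pi.single (Sum.inr i₀) 1 : Fin n ⊕ Fin n → F) = Sum.elim (0 : Fin n → F) (Pi.single i₀ 1) := by
      funext l; rcases l with l | l <;> simp [Pi.single_apply]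
    have hmove : ∀ {u : Fin n → F}, u ≠ 0 → ∀ {w : Fin n → F}, w ≠ 0 →
        ∃ A : GL (Fin n) F, (A : Matrix (Fin n) (Fin n) F)ᵀ *ᵥ u = w :=
      fun hu _ hw => exists_transpose_mulVec hu hw
    have h1 : (Pi.single i₀ 1 : Fin n → F) ≠ 0 := by simp
    rw [← Sum.elim_comp_inl_inr v]
    by_cases hx : v ∘ Sum.inl = 0
    · have hy : v ∘ Sum.inr ≠ 0 := fun e => hv (by
        rw [← Sum.elim_comp_inl_inr v, hx, e]; funext l; rcases l with l | l <;> rfl)
      obtain ⟨A, hA⟩ := hmove h1 hy
      refine ⟨_, hg A⁻¹, ?_⟩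
      rw [he, act_glSp, inv_inv, hA, mulVec_zero, hx]
    · obtain ⟨A, hA⟩ := hmove h1 (neg_ne_zero.2 hx)
      let B : GL (Fin n) F := GeneralLinearGroup.mkOfDetNeZero (A : Matrix (Fin n) (Fin n) F)ᵀ
        (by rw [det_transpose]; exact ((Matrix.isUnit_iff_isUnit_det _).1 A.isUnit).ne_zero)
      obtain ⟨S, hS⟩ := exists_sym_mulVec hx (v ∘ Sum.inr)
      refine ⟨_, mul_mem (mul_mem (hl S) (hg B)) (hw i₀), ?_⟩
      have e1 : Function.update (0 : Fin n → F) i₀ (-1) = -Pi.single i₀ 1 := by
        funext l; rcases eq_or_ne l i₀ with rfl | hl <;> simp [*]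
      have e2 : Function.update (Pi.single i₀ (1 : F) : Fin n → F) i₀ 0 = 0 := by
        funext l; rcases eq_or_ne l i₀ with rfl | hl <;> simp [*]
      have e3 : (B : Matrix (Fin n) (Fin n) F) *ᵥ (-Pi.single i₀ 1) = v ∘ Sum.inl := by
        show (A : Matrix (Fin n) (Fin n) F)ᵀ *ᵥ _ = _
        rw [mulVec_neg, hA, neg_neg]
      rw [he, act_mul, act_mul, act_wk, Pi.single_eq_same, Pi.zero_apply, e1, e2, act_glSp, e3,
        mulVec_zero, act_lower, hS, add_zero]
  have hconj : T = h * lower (dsym i₀ (-c)) * h⁻¹ := by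
    rw [eq_mul_inv_iff_mul_eq]
    apply Subtype.ext
    show T.1 * h.1 = h.1 * _
    rw [transvection_eq_lower, hT, ← he, act, ← CfsgLib.Forms.conj_sympTransvection h.2,
      Matrix.nonsing_inv_mul_cancel_right _ _ (SymplecticGroup.symplectic_det h.2)]
  rw [hconj]
  exact mul_mem (mul_mem hh (hl _)) (inv_mem hh)

end CfsgLib.Generators.SpWeil
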