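import Cfsg.Agent.Lib.Generators.SpWeil.Compare
import Cfsg.Agent.Lib.CharTheory.Inflation

/-!
The four Weil representations of `Sp_2n(q)`, `q` odd.
-/

set_option autoImplicit false
set_option linter.unusedSectionVars false
set_option linter.style.haveILetI false

namespace CfsgLib.Generators.SpWeil

open Matrix CfsgLib.InvCentralizers.SympBound CfsgLib.InvCentralizers.AbelianEigen CfsgLib.Laws
  CfsgLib.InvCentralizers.WeilRep

variable {F : Type*} [Field F] [Fintype F] {n : ℕ}

local notation "Gp" => Matrix.symplecticGroup (Fin n) F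

/-- The normalised operator on the functions of parity `ε`. -/
noncomputable def nrmE (ε : ℂ) (hε : ε * ε = 1) (T : Module.End ℂ ((Fin n → F) → ℂ)) :
    Module.End ℂ (par F n ε) :=
  (cst T)⁻¹ • res ε hε T

theorem cst_smul (h2 : (2 : F) ≠ 0) {a : ℂ} (ha : a ≠ 0) (T : Module.End ℂ ((Fin n → F) → ℂ)) :
    cst (a • T) = a * cst T := by
  simp only [cst, map_smul, LinearMap.det_smul, finrank_even h2, pow_succ]
  rw [mul_comm (a ^ _) a, mul_assoc, mul_div_assoc, mul_div_mul_left _ _ (pow_ne_zero _ ha)]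

theorem cst_mul {T T' : Module.End ℂ ((Fin n → F) → ℂ)} (hT : Pm * T = T * Pm)
    (hT' : Pm * T' = T' * Pm) : cst (T * T') = cst T * cst T' := by
  simp only [cst, res_mul _ _ hT hT', map_mul, div_mul_div_comm]

theorem cst_one : cst (1 : Module.End ℂ ((Fin n → F) → ℂ)) = 1 := by
  simp [cst, res_one]

theorem nrmE_op (h2 : (2 : F) ≠ 0) (ε : ℂ) (hε : ε * ε = 1) (g : Gp)
    {T : Module.End ℂ ((Fin n → F) → ℂ)} (hT : Inter g T) (h0 : T ≠ 0) :
    nrmE ε hε (op h2 g) = nrmE ε hε T := by
  obtain ⟨a, ha⟩ := hT.unique h2 h0 (op_spec h2 g).1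
  have ha0 : a ≠ 0 := fun h => (op_spec h2 g).2 (by rw [ha, h, zero_smul])
  rw [ha, nrmE, nrmE, cst_smul h2 ha0, map_smul, smul_smul]
  congr 1
  rw [mul_inv, mul_comm a⁻¹, mul_assoc, inv_mul_cancel₀ ha0, mul_one]

/-- The Weil representation of parity `ε`. -/
noncomputable def weilE (h2 : (2 : F) ≠ 0) (ε : ℂ) (hε : ε * ε = 1) :
    Representation ℂ Gp (par F n ε) where
  toFun g := nrmE ε hε (op h2 g)
  map_one' := by
    refine (nrmE_op h2 ε hε 1 (T := 1) (fun v => ?_)
      (fun e => (op_spec h2 1).2 (by rw [← mul_one (op h2 1), e, mul_zero]))).trans ?_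
    · rw [one_mul, CfsgLib.InvCentralizers.WeilRep.act_one, mul_one]
    · rw [nrmE, cst_one, inv_one, one_smul, res_one]
  map_mul' g h := by
    obtain ⟨hg, hg0⟩ := op_spec h2 g
    obtain ⟨hh, hh0⟩ := op_spec h2 h
    rw [nrmE_op h2 ε hε (g * h) (hg.mul hh)
      (fun e => hh0 ((hg.isUnit h2 hg0).mul_right_eq_zero.1 e))]
    simp only [nrmE, res_mul ε hε (hg.commute_Pm h2 hg0) (hh.commute_Pm h2 hh0),
      cst_mul (hg.commute_Pm h2 hg0) (hh.commute_Pm h2 hh0), smul_mul_assoc, mul_smul_comm, smul_smul]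
    rw [mul_inv, mul_comm]

theorem cst_ne_zero (h2 : (2 : F) ≠ 0) {g : Gp} {T : Module.End ℂ ((Fin n → F) → ℂ)}
    (hT : Inter g T) (h0 : T ≠ 0) : cst T ≠ 0 :=
  div_ne_zero (det_res_ne_zero _ _ (hT.commute_Pm h2 h0) (hT.isUnit h2 h0))
    (det_res_ne_zero _ _ (hT.commute_Pm h2 h0) (hT.isUnit h2 h0))

theorem weilE_apply (h2 : (2 : F) ≠ 0) (ε : ℂ) (hε : ε * ε = 1) (g : Gp)
    {T : Module.End ℂ ((Fin n → F) → ℂ)} (hT : Inter g T) (h0 : T ≠ 0) (f : par F n ε) (z : Fin n → F) :
    (weilE h2 ε hε g f : (Fin n → F) → ℂ) z = (cst T)⁻¹ * T f z := by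
  change (nrmE ε hε (op h2 g) f : (Fin n → F) → ℂ) z = _
  rw [nrmE_op h2 ε hε g hT h0, nrmE, LinearMap.smul_apply, Submodule.coe_smul, Pi.smul_apply,
    smul_eq_mul, coe_res _ _ (hT.commute_Pm h2 h0)]

theorem lowerOp_apply (S : symMat n F) (f : (Fin n → F) → ℂ) (z : Fin n → F) :
    lowerOp S f z = psi F (-(qval S z) / 2) * f z := rfl

theorem glOp_apply (A : GL (Fin n) F) (f : (Fin n → F) → ℂ) (z : Fin n → F) :
    glOp A f z = f (((A⁻¹ : GL (Fin n) F) : Matrix (Fin n) (Fin n) F) *ᵥ z) := rfl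

theorem lowerOp_ne_zero (S : symMat n F) : lowerOp S ≠ 0 := fun h => by
  have := congrFun (LinearMap.congr_fun h (fun _ => 1)) 0
  simp [lowerOp_apply, qval] at this

theorem glOp_ne_zero (A : GL (Fin n) F) : glOp A ≠ 0 := fun h => by
  have := congrFun (LinearMap.congr_fun h (fun _ => 1)) 0
  simp [glOp_apply] at this

/-- The scalar attached to a lower unipotent element is trivial. -/
theorem cst_lowerOp (h2 : (2 : F) ≠ 0) (hn : 2 ≤ n) (S : symMat n F) : cst (lowerOp S) = 1 := by
  classical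
  haveI : Nontrivial (Fin n) := Fin.nontrivial_iff_two_le.2 hn
  let s : symMat n F → ℂ := fun S => cst (lowerOp S)
  have hP : ∀ S : symMat n F, Pm * lowerOp S = lowerOp S * Pm := fun S =>
    (lowerOp_inter h2 S).commute_Pm h2 (lowerOp_ne_zero S)
  have hadd : ∀ X Y, s (X + Y) = s X * s Y := fun X Y => by
    have e : lowerOp (X + Y) = lowerOp X * lowerOp Y := by
      refine LinearMap.ext fun f => funext fun z => ?_
      simp only [Module.End.mul_apply, lowerOp_apply, ← mul_assoc, ← AddChar.map_add_eq_mul]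
      congr 2
      simp only [qval, Submodule.coe_add, add_mulVec, dotProduct_add]
      ring
    show cst _ = _
    rw [e, cst_mul (hP X) (hP Y)]
  have hzero : s 0 = 1 := by
    show cst _ = _
    rw [show lowerOp (0 : symMat n F) = 1 from LinearMap.ext fun f => funext fun z => by
      simp [lowerOp_apply, qval], cst_one]
  have hne : ∀ X, s X ≠ 0 := fun X => cst_ne_zero h2 (lowerOp_inter h2 X) (lowerOp_ne_zero X)
  have hcongr : ∀ (A : GL (Fin n) F) X, s (congrSym (A : Matrix (Fin n) (Fin n) F)ᵀ X) = s X := by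
    intro A X
    have e : lowerOp X * glOp A = glOp A * lowerOp (congrSym (A : Matrix (Fin n) (Fin n) F)ᵀ X) := by
      refine LinearMap.ext fun f => funext fun z => ?_
      simp only [Module.End.mul_apply, lowerOp_apply, glOp_apply, qval_congrSym, transpose_transpose,
        mulVec_mulVec, Units.mul_inv, one_mulVec]
    have hA := (glOp_inter A).commute_Pm h2 (glOp_ne_zero A)
    have e' := congrArg cst e
    rw [cst_mul (hP X) hA, cst_mul hA (hP _), mul_comm] at e'
    exact (mul_left_cancel₀ (cst_ne_zero h2 (glOp_inter A) (glOp_ne_zero A)) e').symm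
  have hdiag : ∀ (b : Fin n) (γ : F), s (dsym b γ) = 1 := by
    intro b γ
    obtain ⟨a, hab⟩ := exists_ne b
    have hexp : ∀ r : F, congrSym ((tv hab r : GL (Fin n) F) : Matrix (Fin n) (Fin n) F)ᵀ (dsym a (γ / 2)) =
        dsym a (γ / 2) + offd a b (γ / 2 * r) + dsym b (γ / 2 * r * r) := by
      intro r
      apply Subtype.ext
      ext x y
      simp [congrSym, dsym, offd, tv, Matrix.transvection, Matrix.mul_apply, Matrix.single_apply,
        Matrix.one_apply, add_mul, mul_add, Finset.sum_add_distrib, ite_and, Finset.sum_ite_eq',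
        Finset.sum_ite_eq]
      grind
    have hr : ∀ r : F, s (offd a b (γ / 2 * r)) * s (dsym b (γ / 2 * r * r)) = 1 := by
      intro r
      have h1 := hcongr (tv hab r) (dsym a (γ / 2))
      rw [hexp, hadd, hadd, mul_assoc] at h1
      exact mul_left_cancel₀ (hne (dsym a (γ / 2))) (h1.trans (mul_one _).symm)
    have h1 := hr 1
    have h3 := hr (-1)
    rw [mul_one, mul_one] at h1
    rw [show γ / 2 * -1 * -1 = γ / 2 by ring] at h3
    have h4 : s (offd a b (γ / 2)) * s (offd a b (γ / 2 * -1)) = 1 := by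
      rw [← hadd, show offd a b (γ / 2) + offd a b (γ / 2 * -1) = 0 from Subtype.ext (by
        ext x y; simp [offd, Matrix.single_apply]; grind), hzero]
    have h5 : s (dsym b γ) = s (dsym b (γ / 2)) * s (dsym b (γ / 2)) := by
      rw [← hadd]
      congr 1
      apply Subtype.ext
      ext x y
      simp [dsym, Matrix.single_apply]
      grind
    linear_combination h5 + (s (offd a b (γ / 2 * -1)) * s (dsym b (γ / 2))) * h1 + h3 -
      (s (dsym b (γ / 2)) * s (dsym b (γ / 2))) * h4
  have hoff : ∀ a b (r : F), s (offd a b r) = 1 := by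
    intro a b r
    rcases eq_or_ne a b with rfl | hab
    · rw [show offd a a r = dsym a r + dsym a r from rfl, hadd, hdiag, mul_one]
    · have h1 := hcongr (tv hab 1) (dsym a r)
      have hexp : congrSym ((tv hab 1 : GL (Fin n) F) : Matrix (Fin n) (Fin n) F)ᵀ (dsym a r) =
          dsym a r + offd a b r + dsym b r := by
        apply Subtype.ext
        ext x y
        simp [congrSym, dsym, offd, tv, Matrix.transvection, Matrix.mul_apply, Matrix.single_apply,
          Matrix.one_apply, add_mul, mul_add, Finset.sum_add_distrib, ite_and, Finset.sum_ite_eq',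
          Finset.sum_ite_eq]
        grind
      rwa [hexp, hadd, hadd, hdiag, hdiag, one_mul, mul_one] at h1
  have hS : S = ∑ a, ∑ b, offd a b ((S : Matrix (Fin n) (Fin n) F) a b / 2) := by
    apply Subtype.ext
    ext x y
    simp only [AddSubmonoidClass.coe_finsetSum, Matrix.sum_apply, offd, Matrix.add_apply,
      Finset.sum_add_distrib, Matrix.single_apply, ite_and]
    simp only [Finset.sum_ite_eq', Finset.mem_univ, if_true, Finset.sum_ite_irrel, Finset.sum_const_zero]
    rw [symMat_apply S y x]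
    field_simp
    ring
  show s S = 1
  rw [hS]
  refine Finset.sum_induction _ (fun X => s X = 1) (fun X Y hX hY => by rw [hadd, hX, hY, mul_one]) hzero
    fun a _ => ?_
  exact Finset.sum_induction _ (fun X => s X = 1) (fun X Y hX hY => by rw [hadd, hX, hY, mul_one]) hzero
    fun b _ => hoff a b _

theorem weilE_lower (h2 : (2 : F) ≠ 0) (hn : 2 ≤ n) (ε : ℂ) (hε : ε * ε = 1) (S : symMat n F)
    (f : par F n ε) (z : Fin n → F) :
    (weilE h2 ε hε (lower S) f : (Fin n → F) → ℂ) z =
      psi F (-(qval S z) / 2) * (f : (Fin n → F) → ℂ) z := by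
  rw [weilE_apply h2 ε hε _ (lowerOp_inter h2 S) (lowerOp_ne_zero S), cst_lowerOp h2 hn, inv_one,
    one_mul, lowerOp_apply]

theorem nine_le (h2 : (2 : F) ≠ 0) (hn : 2 ≤ n) : 9 ≤ Fintype.card F ^ n := by
  have : 3 ≤ Fintype.card F := by
    by_contra h3
    have := Fintype.one_lt_card (α := F)
    have hc2 : Fintype.card F = 2 := by omega
    have h0 := FiniteField.cast_card_eq_zero F
    rw [hc2] at h0
    exact h2 (by exact_mod_cast h0)
  exact le_trans (by nlinarith : 9 ≤ Fintype.card F ^ 2) (Nat.pow_le_pow_right (by omega) hn)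

theorem psi_ne_zero (x : F) : psi F x ≠ 0 := fun h0 => by
  have := AddChar.map_add_eq_mul (psi F) x (-x)
  rw [add_neg_cancel, h0, zero_mul, AddChar.map_zero_eq_one] at this
  exact one_ne_zero this

theorem vecMulVec_eq_of_psi (h2 : (2 : F) ≠ 0) {a b : F} {z w : Fin n → F}
    (h : ∀ S : symMat n F, psi F (a * qval S z) = psi F (b * qval S w)) (i j : Fin n) :
    a * (z i * z j) = b * (w i * w j) := by
  by_contra hne
  obtain ⟨r, hr⟩ := exists_psi_ne (F := F) (mul_ne_zero h2 (sub_ne_zero.2 hne))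
  refine hr ?_
  have h1 := h (offd i j r)
  rw [qval_offd, qval_offd] at h1
  rw [show 2 * (a * (z i * z j) - b * (w i * w j)) * r =
    a * (2 * (r * (z i * z j))) - b * (2 * (r * (w i * w j))) by ring, AddChar.map_sub_eq_div, h1,
    div_self (psi_ne_zero _)]

/-- No nonzero vector is fixed. -/
theorem weilE_no_fixed (h2 : (2 : F) ≠ 0) (hn : 2 ≤ n) (ε : ℂ) (hε : ε * ε = 1) (f : par F n ε)
    (hfix : ∀ g, weilE h2 ε hε g f = f) : f = 0 := by
  classical
  have hsupp : ∀ z w, (f : (Fin n → F) → ℂ) z ≠ 0 → (f : (Fin n → F) → ℂ) w ≠ 0 →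
      ∀ i j, z i * z j = w i * w j := by
    intro z w hz hw i j
    have e : ∀ x, (f : (Fin n → F) → ℂ) x ≠ 0 → ∀ S : symMat n F, psi F (-(1 / 2) * qval S x) = 1 := by
      intro x hx S
      have h1 := weilE_lower h2 hn ε hε S f x
      rw [hfix, show -(qval S x) / 2 = -(1 / 2) * qval S x by ring] at h1
      exact mul_right_cancel₀ hx (h1.symm.trans (one_mul _).symm)
    exact mul_left_cancel₀ (neg_ne_zero.2 (one_div_ne_zero h2))
      (vecMulVec_eq_of_psi h2 (fun S => (e z hz S).trans (e w hw S).symm) i j)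
  by_contra hf
  obtain ⟨z₀, hz₀⟩ : ∃ z, (f : (Fin n → F) → ℂ) z ≠ 0 := by
    by_contra h; push Not at h
    exact hf (Subtype.ext (funext h))
  by_cases h0 : z₀ = 0
  · subst h0
    have hzero : ∀ z, z ≠ 0 → (f : (Fin n → F) → ℂ) z = 0 := by
      intro z hz
      by_contra hne
      obtain ⟨i, hi⟩ := Function.ne_iff.1 hz
      have := hsupp z 0 hne hz₀ i i
      simp at this
      exact hi this
    let i₀ : Fin n := ⟨0, by omega⟩
    set g : Gp := wk i₀
    obtain ⟨hT, hT0⟩ := op_spec h2 g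
    set T := op h2 g
    have hTf : T (f : (Fin n → F) → ℂ) = cst T • (f : (Fin n → F) → ℂ) := by
      funext z
      have h1 := weilE_apply h2 ε hε g hT hT0 f z
      rw [hfix] at h1
      rw [Pi.smul_apply, smul_eq_mul, h1, ← mul_assoc, mul_inv_cancel₀ (cst_ne_zero h2 hT hT0), one_mul]
    set v : Fin n ⊕ Fin n → F := Sum.elim 0 (Pi.single i₀ 1)
    have hWv : W v (f : (Fin n → F) → ℂ) = f := by
      funext z
      rw [W_apply, show v ∘ Sum.inl = (0 : Fin n → F) from rfl, zero_dotProduct, zero_div, add_zero, add_zero]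
      rcases eq_or_ne z 0 with rfl | hz
      · simp
      · rw [hzero z hz, mul_zero]
    have h1 := LinearMap.congr_fun (hT v) (f : (Fin n → F) → ℂ)
    rw [Module.End.mul_apply, Module.End.mul_apply, hWv, hTf, map_smul] at h1
    have h3 := smul_right_injective _ (cst_ne_zero h2 hT hT0) h1
    have hgv : CfsgLib.InvCentralizers.WeilRep.act g v ∘ Sum.inl = Function.update (0 : Fin n → F) i₀ (-1) := by
      show act g (Sum.elim 0 (Pi.single i₀ 1)) ∘ Sum.inl = _
      rw [act_wk, Sum.elim_comp_inl, Pi.single_eq_same]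
    have hne : Function.update (0 : Fin n → F) i₀ (-1) ≠ 0 := fun e => by
      have := congrFun e i₀
      simp at this
    have h5 := congrFun h3 0
    rw [W_apply, zero_add, hgv, hzero _ hne, mul_zero] at h5
    exact hz₀ h5
  · have hmove : ∀ u : Fin n → F, u ≠ 0 → u = z₀ ∨ u = -z₀ := by
      intro u hu
      obtain ⟨A, hA⟩ := exists_GL_mulVec hu h0
      have h1 := weilE_apply h2 ε hε _ (glOp_inter A⁻¹) (glOp_ne_zero A⁻¹) f u
      rw [hfix, glOp_apply, inv_inv, hA] at h1
      have hu' : (f : (Fin n → F) → ℂ) u ≠ 0 := by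
        rw [h1]; exact mul_ne_zero (inv_ne_zero (cst_ne_zero h2 (glOp_inter A⁻¹) (glOp_ne_zero A⁻¹))) hz₀
      obtain ⟨k, hk⟩ := Function.ne_iff.1 h0
      simp only [Pi.zero_apply] at hk
      have h3 := hsupp u z₀ hu' hz₀
      refine (mul_self_eq_mul_self_iff.1 (h3 k k)).imp (fun e => funext fun i => ?_) (fun e => funext fun i => ?_)
      · have := h3 k i; rw [e] at this
        exact mul_left_cancel₀ hk this
      · have := h3 k i; rw [e] at this
        exact mul_left_cancel₀ hk (show z₀ k * u i = z₀ k * (-z₀) i by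
          simp only [Pi.neg_apply]; linear_combination -this)
    have hcard : ((Finset.univ : Finset (Fin n → F)).erase 0).card ≤ 2 := by
      refine (Finset.card_le_card (t := {z₀, -z₀}) fun u hu => ?_).trans Finset.card_le_two
      simpa using hmove u (Finset.ne_of_mem_erase hu)
    rw [Finset.card_erase_of_mem (Finset.mem_univ _), Finset.card_univ, Fintype.card_fun, Fintype.card_fin] at hcard
    have := nine_le (n := n) h2 hn
    omega

theorem two_mul_finrank_par_le (h2 : (2 : F) ≠ 0) {ε : ℂ} (hε : ε = 1 ∨ ε = -1) :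
    Fintype.card F ^ n ≤ 2 * Module.finrank ℂ (par F n ε) + 1 ∧
      2 * Module.finrank ℂ (par F n ε) ≤ Fintype.card F ^ n + 1 := by
  have h1 := finrank_odd (n := n) h2
  have h3 := finrank_even (n := n) h2
  rcases hε with rfl | rfl <;> omega

theorem isIrreducible_of_no_fixed {V : Type*} [AddCommGroup V] [Module ℂ V] [FiniteDimensional ℂ V]
    (ρ : Representation ℂ Gp V) (h2 : (2 : F) ≠ 0) (hn : 0 < n) (hd : 0 < Module.finrank ℂ V)
    (hsmall : Module.finrank ℂ V + 1 < Fintype.card F ^ n - 1)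
    (hfix : ∀ x, (∀ g, ρ g x = x) → x = 0) : ρ.IsIrreducible := by
  classical
  haveI : Finite Gp := Finite.of_injective _ Subtype.val_injective
  haveI : NeZero (Nat.card Gp : ℂ) := ⟨Nat.cast_ne_zero.2 Nat.card_pos.ne'⟩
  haveI : Nontrivial V := Module.nontrivial_of_finrank_pos (R := ℂ) hd
  haveI : Nontrivial (Subrepresentation ρ) := ⟨⊥, ⊤, fun h =>
    bot_ne_top (α := Submodule ℂ V) (congrArg Subrepresentation.toSubmodule h)⟩
  refine ⟨fun p => ?_⟩
  obtain ⟨q, hq⟩ := exists_isCompl p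
  have key : ∀ r : Subrepresentation ρ,
      2 * Module.finrank ℂ r.toSubmodule < Fintype.card F ^ n - 1 → r = ⊥ := by
    intro r hr
    let σ : Representation ℂ Gp r.toSubmodule :=
      { toFun := fun g => (ρ g).restrict fun x hx => r.apply_mem_toSubmodule g hx
        map_one' := by
          refine LinearMap.ext fun x => Subtype.ext ?_
          change ρ 1 (x : V) = x
          rw [map_one]; rfl
        map_mul' := fun g h => by
          refine LinearMap.ext fun x => Subtype.ext ?_
          change ρ (g * h) (x : V) = ρ g (ρ h x)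
          rw [map_mul]; rfl }
    have htriv := eq_one_of_finrank_lt σ hn h2 hr
    refine Subrepresentation.toSubmodule_injective ((Submodule.eq_bot_iff _).2 fun x hx => ?_)
    exact hfix x fun g => congrArg Subtype.val (LinearMap.congr_fun (htriv g) ⟨x, hx⟩)
  have hcompl : IsCompl p.toSubmodule q.toSubmodule := by
    constructor
    · rw [disjoint_iff]
      exact congrArg Subrepresentation.toSubmodule hq.1.eq_bot
    · rw [codisjoint_iff]
      exact congrArg Subrepresentation.toSubmodule hq.2.eq_top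
  have hsum := Submodule.finrank_add_eq_of_isCompl hcompl
  by_cases hp : 2 * Module.finrank ℂ p.toSubmodule < Fintype.card F ^ n - 1
  · exact Or.inl (key p hp)
  · refine Or.inr ?_
    rw [key q (by omega)] at hq
    exact eq_top_of_isCompl_bot hq

theorem weilE_isIrreducible (h2 : (2 : F) ≠ 0) (hn : 2 ≤ n) {ε : ℂ} (hε' : ε = 1 ∨ ε = -1) (hε : ε * ε = 1) :
    (weilE (F := F) (n := n) h2 ε hε).IsIrreducible := by
  have hd := two_mul_finrank_par_le (n := n) h2 hε'
  have h9 := nine_le (n := n) h2 hn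
  exact isIrreducible_of_no_fixed _ h2 (by omega) (by omega) (by omega) (weilE_no_fixed h2 hn ε hε)

/-- Conjugation by the diagonal similitude `diag(1, ν)`. -/
noncomputable def twist (ν : Fˣ) : Gp ≃* Gp where
  toFun g := ⟨fromBlocks 1 0 0 ((ν : F) • 1) * g.1 * fromBlocks 1 0 0 (((ν⁻¹ : Fˣ) : F) • 1), twist_mem ν g.2⟩
  invFun g := ⟨fromBlocks 1 0 0 (((ν⁻¹ : Fˣ) : F) • 1) * g.1 * fromBlocks 1 0 0 ((ν : F) • 1), by
    have := twist_mem ν⁻¹ g.2
    rwa [inv_inv] at this⟩
  left_inv g := Subtype.ext (by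
    simp only [← Matrix.mul_assoc]
    rw [diag_mul ν⁻¹, inv_mul_cancel, diag_one, Matrix.one_mul, Matrix.mul_assoc _ _ (fromBlocks 1 0 0 ((ν : F) • 1)),
      diag_mul ν⁻¹, inv_mul_cancel, diag_one, Matrix.mul_one])
  right_inv g := Subtype.ext (by
    simp only [← Matrix.mul_assoc]
    rw [diag_mul ν, mul_inv_cancel, diag_one, Matrix.one_mul,
      Matrix.mul_assoc _ _ (fromBlocks 1 0 0 (((ν⁻¹ : Fˣ) : F) • 1)), diag_mul ν, mul_inv_cancel, diag_one,
      Matrix.mul_one])
  map_mul' g h := Subtype.ext (by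
    show _ * (g.1 * h.1) * _ = _ * g.1 * _ * (_ * h.1 * _)
    simp only [Matrix.mul_assoc]
    rw [← Matrix.mul_assoc (fromBlocks 1 0 0 (((ν⁻¹ : Fˣ) : F) • 1)) (fromBlocks 1 0 0 ((ν : F) • 1)),
      diag_mul ν⁻¹, inv_mul_cancel, diag_one, Matrix.one_mul])
where
  /-- Products of the diagonal similitudes. -/
  diag_mul (a b : Fˣ) : (fromBlocks 1 0 0 ((a : F) • 1) : Matrix (Fin n ⊕ Fin n) (Fin n ⊕ Fin n) F) *
      fromBlocks 1 0 0 ((b : F) • 1) = fromBlocks 1 0 0 (((a * b : Fˣ) : F) • 1) := by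
    simp [fromBlocks_multiply, smul_smul, mul_comm]
  /-- The trivial similitude. -/
  diag_one : (fromBlocks 1 0 0 (((1 : Fˣ) : F) • 1) : Matrix (Fin n ⊕ Fin n) (Fin n ⊕ Fin n) F) = 1 := by
    simp
  /-- The conjugate is symplectic. -/
  twist_mem (ν : Fˣ) {g : Matrix (Fin n ⊕ Fin n) (Fin n ⊕ Fin n) F} (hg : g ∈ Matrix.symplecticGroup (Fin n) F) :
      fromBlocks 1 0 0 ((ν : F) • 1) * g * fromBlocks 1 0 0 (((ν⁻¹ : Fˣ) : F) • 1) ∈
        Matrix.symplecticGroup (Fin n) F := by
    rw [SymplecticGroup.mem_iff] at hg ⊢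
    set D : Matrix (Fin n ⊕ Fin n) (Fin n ⊕ Fin n) F := fromBlocks 1 0 0 ((ν : F) • 1)
    set D' : Matrix (Fin n ⊕ Fin n) (Fin n ⊕ Fin n) F := fromBlocks 1 0 0 (((ν⁻¹ : Fˣ) : F) • 1)
    have e1 : D' * Matrix.J (Fin n) F * D'ᵀ = ((ν⁻¹ : Fˣ) : F) • Matrix.J (Fin n) F := by
      simp [D', Matrix.J, fromBlocks_multiply, fromBlocks_transpose, fromBlocks_smul, fromBlocks_neg]
    have e2 : D * Matrix.J (Fin n) F * Dᵀ = (ν : F) • Matrix.J (Fin n) F := by
      simp [D, Matrix.J, fromBlocks_multiply, fromBlocks_transpose, fromBlocks_smul, fromBlocks_neg]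
    calc D * g * D' * Matrix.J (Fin n) F * (D * g * D')ᵀ
        = D * g * (D' * Matrix.J (Fin n) F * D'ᵀ) * gᵀ * Dᵀ := by
          simp [transpose_mul, Matrix.mul_assoc]
      _ = ((ν⁻¹ : Fˣ) : F) • (D * (g * Matrix.J (Fin n) F * gᵀ) * Dᵀ) := by
          rw [e1]; simp [Matrix.mul_assoc]
      _ = _ := by rw [hg, e2, smul_smul, Units.inv_mul, one_smul]

theorem twist_lower (ν : Fˣ) (S : symMat n F) : twist ν (lower S) = lower ((ν : F) • S) := by
  apply Subtype.ext
  simp [twist, lower, fromBlocks_multiply, smul_smul]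

/-- The Weil representations of the two classes differ. -/
theorem character_ne_twist (h2 : (2 : F) ≠ 0) (hn : 2 ≤ n) {ε : ℂ} (hε' : ε = 1 ∨ ε = -1) (hε : ε * ε = 1)
    {ν : Fˣ} (hν : ∀ r : F, r * r ≠ (ν : F)) :
    (weilE (F := F) (n := n) h2 ε hε).character ≠
      Representation.character
        ((weilE (F := F) (n := n) h2 ε hε).comp (twist ν).toMonoidHom : Representation ℂ Gp (par F n ε)) := by
  classical
  intro h
  haveI : Finite Gp := Finite.of_injective _ Subtype.val_injective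
  haveI := Fintype.ofFinite Gp
  haveI := weilE_isIrreducible (F := F) (n := n) h2 hn hε' hε
  set ρ := weilE (F := F) (n := n) h2 ε hε
  haveI : Representation.IsIrreducible (ρ.comp (twist ν).toMonoidHom : Representation ℂ Gp (par F n ε)) :=
    CfsgLib.CharTheory.isIrreducible_comp ρ (twist ν).surjective
  obtain ⟨φ⟩ := (CfsgLib.CharTheory.nonempty_equiv_iff_character_eq ρ
    (ρ.comp (twist ν).toMonoidHom : Representation ℂ Gp (par F n ε))).2 h
  let i₀ : Fin n := ⟨0, by omega⟩
  set e : Fin n → F := Pi.single i₀ 1 with he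
  have hne : -e ≠ e := neg_ne h2 (by simp [he])
  let f : par F n ε := pr ε hε (Pi.single e 1)
  have hval : ∀ z, (f : (Fin n → F) → ℂ) z ≠ 0 → z = e ∨ z = -e := by
    intro z hz
    by_contra hc
    push Not at hc
    refine hz ?_
    simp [f, coe_pr, Pm_apply, hc.1, neg_eq_iff_eq_neg, hc.2]
  have hfe : (f : (Fin n → F) → ℂ) e ≠ 0 := by
    simp [f, coe_pr, Pm_apply, hne]
  have hwt : ∀ S, ρ (lower S) f = psi F (-(qval S e) / 2) • f := by
    intro S
    refine Subtype.ext (funext fun z => ?_)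
    rw [weilE_lower h2 hn ε hε, Submodule.coe_smul, Pi.smul_apply, smul_eq_mul]
    by_cases hz : (f : (Fin n → F) → ℂ) z = 0
    · simp [hz]
    · congr 3
      rcases hval z hz with rfl | rfl
      · rfl
      · simp [qval, mulVec_neg]
  set g : par F n ε := φ.toLinearEquiv f
  have hg0 : g ≠ 0 := fun e' => hfe (by
    have h0 : f = 0 := φ.toLinearEquiv.injective (e'.trans (map_zero _).symm)
    rw [h0]; rfl)
  have hgwt : ∀ S, ρ (lower ((ν : F) • S)) g = psi F (-(qval S e) / 2) • g := by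
    intro S
    have h1 := φ.toIntertwiningMap.isIntertwining ρ (ρ.comp (twist ν).toMonoidHom) (lower S) f
    rw [hwt S] at h1
    have h3 : φ.toLinearEquiv (psi F (-(qval S e) / 2) • f) = ρ (twist ν (lower S)) g := h1
    rw [map_smul, twist_lower] at h3
    exact h3.symm
  obtain ⟨w, hw⟩ : ∃ w, (g : (Fin n → F) → ℂ) w ≠ 0 := by
    by_contra hc; push Not at hc
    exact hg0 (Subtype.ext (funext hc))
  have hkey : ∀ S : symMat n F, psi F ((-(ν : F) / 2) * qval S w) = psi F (-(1 / 2) * qval S e) := by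
    intro S
    have h1 := congrFun (congrArg Subtype.val (hgwt S)) w
    rw [weilE_lower h2 hn ε hε, Submodule.coe_smul, Pi.smul_apply, smul_eq_mul] at h1
    have h3 := mul_right_cancel₀ hw h1
    rw [show -(1 / 2) * qval S e = -qval S e / 2 by ring, ← h3]
    congr 1
    simp only [qval, Submodule.coe_smul, Matrix.smul_mulVec, dotProduct_smul, smul_eq_mul]
    ring
  have h3 := vecMulVec_eq_of_psi h2 hkey i₀ i₀
  rw [show e i₀ = 1 from Pi.single_eq_same ..] at h3
  have hwi : w i₀ ≠ 0 := fun e' => by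
    rw [e'] at h3
    field_simp at h3
    simp at h3
  refine hν (1 / w i₀) ?_
  field_simp at h3 ⊢
  linear_combination h3

end CfsgLib.Generators.SpWeil
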