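import Cfsg.Agent.Lib.Generators.SpWeil.Weights

/-!
Normal form of a representation of rank one: the vectors indexed by the points of `F^n`.
-/

set_option autoImplicit false
set_option linter.unusedSectionVars false
set_option linter.style.haveILetI false

namespace CfsgLib.Generators.SpWeil

open Matrix CfsgLib.InvCentralizers.SympBound CfsgLib.InvCentralizers.AbelianEigen CfsgLib.Laws

variable {F : Type*} [Field F] [Fintype F] [DecidableEq F] {n : ℕ}
  {V : Type*} [AddCommGroup V] [Module ℂ V]

theorem exists_GL_mulVec {v w : Fin n → F} (hv : v ≠ 0) (hw : w ≠ 0) :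
    ∃ A : GL (Fin n) F, (A : Matrix (Fin n) (Fin n) F) *ᵥ v = w := by
  obtain ⟨A, hA⟩ := exists_transpose_mulVec hv hw
  exact ⟨GeneralLinearGroup.mkOfDetNeZero (A : Matrix (Fin n) (Fin n) F)ᵀ
    (by rw [det_transpose]; exact ((Matrix.isUnit_iff_isUnit_det _).1 A.isUnit).ne_zero), hA⟩

theorem eta_det_sq (A : GL (Fin n) F) :
    eta F (A : Matrix (Fin n) (Fin n) F).det * eta F (A : Matrix (Fin n) (Fin n) F).det = 1 :=
  eta_mul_self ((Matrix.isUnit_iff_isUnit_det _).1 A.isUnit).ne_zero

/-- The character value attached to a pair of coordinates. -/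
noncomputable def chw (c x t : F) : ℂ := psi F (c * (2 * (x * t)))

theorem chw_zero_left (c t : F) : chw c 0 t = 1 := by simp [chw]

theorem chw_zero_right (c x : F) : chw c x 0 = 1 := by simp [chw]

theorem sum_chw (h2 : (2 : F) ≠ 0) {c : F} (hc : c ≠ 0) {s : F} (hs : s ≠ 0) :
    ∑ t ∈ (Finset.univ : Finset F).erase 0, chw c t s = -1 := by
  have h := AddChar.sum_mulShift (c * (2 * s)) (psi_prim (F := F))
  rw [if_neg (mul_ne_zero hc (mul_ne_zero h2 hs)), Nat.cast_zero] at h
  have h' : ∑ t : F, chw c t s = 0 := by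
    rw [← h]
    refine Finset.sum_congr rfl fun t _ => ?_
    show psi F (c * (2 * (t * s))) = psi F (t * (c * (2 * s)))
    rw [show c * (2 * (t * s)) = t * (c * (2 * s)) by ring]
  rw [← Finset.add_sum_erase _ _ (Finset.mem_univ (0 : F)), chw_zero_left] at h'
  linear_combination h'

/-- A system of vectors on which the generators act by the standard formulas. -/
structure NormalForm (ρ : Representation ℂ (Matrix.symplecticGroup (Fin n) F) V) (c : F) (ε : ℂ) where
  vec : (Fin n → F) → V
  lower_vec : ∀ S z, ρ (lower S) (vec z) = psi F (c * qval S z) • vec z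
  glSp_vec : ∀ (A : GL (Fin n) F) z, ρ (glSp n A) (vec z) =
    eta F (A : Matrix (Fin n) (Fin n) F).det • vec ((A : Matrix (Fin n) (Fin n) F) *ᵥ z)
  wk_vec : ∀ k z, ρ (wk k) (vec z) = kap c • ∑ s : F, chw c (z k) s • vec (Function.update z k s)
  neg_vec : ∀ z, vec (-z) = ε • vec z

set_option maxHeartbeats 800000 in
theorem exists_normalForm [FiniteDimensional ℂ V] (ρ : Representation ℂ (Matrix.symplecticGroup (Fin n) F) V)
    (h2 : (2 : F) ≠ 0) (hn : 2 ≤ n) (hR : RankOne ρ) {c : F} (hc : c ≠ 0) (i₀ : Fin n)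
    {u : V} (hu : u ∈ Wt ρ c (Pi.single i₀ (1 : F))) {ζ : ℂ}
    (hζ : ∀ x, ρ (glSp n (-1 : GL (Fin n) F)) x = ζ • x) :
    ∃ N : NormalForm ρ c (eta F (-1) ^ n * ζ), N.vec (Pi.single i₀ 1) = u := by
  classical
  haveI : Nontrivial (Fin n) := Fin.nontrivial_iff_two_le.2 hn
  set e : Fin n → F := Pi.single i₀ 1 with he
  have he0 : e ≠ 0 := by simp [he]
  choose! A₁ hA₁ using fun (z : Fin n → F) (hz : z ≠ 0) => exists_GL_mulVec he0 hz
  let w : (Fin n → F) → V := fun z => eta F (A₁ z : Matrix (Fin n) (Fin n) F).det • ρ (glSp n (A₁ z)) u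
  have hwW : ∀ z, z ≠ 0 → w z ∈ Wt ρ c z := fun z hz => by
    have h1 := glSp_Wt ρ (A₁ z) hu
    rw [show (A₁ z : Matrix (Fin n) (Fin n) F) *ᵥ (Pi.single i₀ 1 : Fin n → F) = z from hA₁ z hz] at h1
    exact Submodule.smul_mem _ _ h1
  have hwl : ∀ S z, z ≠ 0 → ρ (lower S) (w z) = psi F (c * qval S z) • w z := fun S z hz =>
    mem_Wt ρ |>.1 (hwW z hz) S
  have hwg : ∀ (A : GL (Fin n) F) z, z ≠ 0 → ρ (glSp n A) (w z) =
      eta F (A : Matrix (Fin n) (Fin n) F).det • w ((A : Matrix (Fin n) (Fin n) F) *ᵥ z) := by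
    intro A z hz
    set z' := (A : Matrix (Fin n) (Fin n) F) *ᵥ z
    have hz' : z' ≠ 0 := fun h => hz (by
      have := congrArg (((A⁻¹ : GL (Fin n) F) : Matrix (Fin n) (Fin n) F) *ᵥ ·) h
      simpa [z', mulVec_mulVec] using this)
    set B := (A₁ z')⁻¹ * A * A₁ z with hB
    have hBe : (B : Matrix (Fin n) (Fin n) F) *ᵥ e = e := by
      rw [hB, Units.val_mul, Units.val_mul, ← mulVec_mulVec, hA₁ z hz, ← mulVec_mulVec]
      change ((A₁ z')⁻¹ : GL (Fin n) F).1 *ᵥ z' = e
      have h1 := congrArg (((A₁ z')⁻¹ : GL (Fin n) F).1 *ᵥ ·) (hA₁ z' hz')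
      simp only [mulVec_mulVec, Units.inv_mul, one_mulVec] at h1
      exact h1.symm
    have hmul : A * A₁ z = A₁ z' * B := by rw [hB, mul_assoc (A₁ z')⁻¹, mul_inv_cancel_left]
    have hdet : (A : Matrix (Fin n) (Fin n) F).det * (A₁ z : Matrix (Fin n) (Fin n) F).det =
        (A₁ z' : Matrix (Fin n) (Fin n) F).det * (B : Matrix (Fin n) (Fin n) F).det := by
      rw [← det_mul, ← det_mul, ← Units.val_mul, ← Units.val_mul, hmul]
    simp only [w, map_smul, ← Module.End.mul_apply, ← map_mul, hmul]
    rw [map_mul, map_mul, Module.End.mul_apply, stab_Wt ρ h2 hR hc i₀ B hBe hu, map_smul, smul_smul, smul_smul]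
    congr 1
    have h1 := eta_det_sq A
    have h3 := eta_det_sq B
    have hd := congrArg (eta F) hdet
    rw [map_mul, map_mul] at hd
    linear_combination (eta F (A : Matrix (Fin n) (Fin n) F).det * eta F (B : Matrix (Fin n) (Fin n) F).det) * hd -
      (eta F (A₁ z : Matrix (Fin n) (Fin n) F).det * eta F (B : Matrix (Fin n) (Fin n) F).det) * h1 +
      (eta F (A₁ z' : Matrix (Fin n) (Fin n) F).det * eta F (A : Matrix (Fin n) (Fin n) F).det) * h3
  have hwe : w e = u := by
    simp only [w]
    rw [stab_Wt ρ h2 hR hc i₀ (A₁ e) (hA₁ e he0) hu, smul_smul, eta_det_sq, one_smul]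
  -- the formula away from the axes
  have hsingle : ∀ {k i : Fin n} (z : Fin n → F) (t : F), z k = 0 → z + Pi.single k t = Function.update z k t := by
    intro k _ z t hz
    funext l
    rcases eq_or_ne l k with rfl | hl <;> simp [*]
  have hoff : ∀ (k i : Fin n) (z : Fin n → F), k ≠ i → z i ≠ 0 →
      ρ (wk k) (w z) = kap c • ∑ s : F, chw c (z k) s • w (Function.update z k s) := by
    intro k i z hki hzi
    set z₀ := Function.update z k 0 with hz₀
    have hk0 : z₀ k = 0 := by simp [hz₀]
    have hi0 : z₀ i ≠ 0 := by simpa [hz₀, Ne.symm hki] using hzi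
    have hne : z₀ ≠ 0 := fun h => hi0 (by rw [h]; rfl)
    have hsh : ∀ t, ρ (glSp n (shiftGL hki z₀ t)) (w z₀) = w (Function.update z k t) := by
      intro t
      rw [hwg _ _ hne, shiftGL_mulVec hki hi0, shiftGL, det_tv, map_one, one_smul, hsingle (i := i) z₀ t hk0,
        hz₀, Function.update_idem]
    have hz : w z = ρ (glSp n (shiftGL hki z₀ (z k))) (w z₀) := by rw [hsh, Function.update_eq_self]
    rw [hz, ← Module.End.mul_apply, ← map_mul, shiftGL, wk_mul_tv, map_mul, Module.End.mul_apply,
      (wk_and_torus ρ h2 hR hc hki hk0 hi0 (hwW z₀ hne)).1]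
    simp only [map_smul, map_sum, hsh]
    congr 1
    refine Finset.sum_congr rfl fun s _ => ?_
    have hne' : Function.update z k s ≠ 0 := fun h => hzi (by
      have := congrFun h i; simpa [Ne.symm hki] using this)
    rw [hwl _ _ hne']
    congr 1
    have hzi' : z₀ i = z i := by simp [hz₀, Ne.symm hki]
    rw [chw, qval_offd, hzi', Function.update_self, Function.update_of_ne hki.symm]
    congr 2
    field_simp
  -- vectors on the axes
  let E : Finset F := (Finset.univ : Finset F).erase 0
  have hE : ∀ {t : F}, t ∈ E → t ≠ 0 := fun ht => Finset.ne_of_mem_erase ht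
  have hsplit : ∀ (f : F → V), ∑ s : F, f s = f 0 + ∑ s ∈ E, f s := fun f =>
    (Finset.add_sum_erase _ _ (Finset.mem_univ (0 : F))).symm
  have hκ : kap c ≠ 0 := inv_ne_zero (gau_ne_zero h2 (neg_ne_zero.2 hc))
  let U : Fin n → F → V := fun j x =>
    (kap c)⁻¹ • ρ (wk j) (w (Pi.single j x)) - ∑ t ∈ E, chw c x t • w (Pi.single j t)
  have hwU : ∀ j x, ρ (wk j) (w (Pi.single j x)) = kap c • (U j x + ∑ t ∈ E, chw c x t • w (Pi.single j t)) :=
    fun j x => by rw [sub_add_cancel, smul_smul, mul_inv_cancel₀ hκ, one_smul]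
  have hA : ∀ j k x, j ≠ k → x ≠ 0 →
      ρ (wk k) (U j x) = kap c • (U j x + ∑ t ∈ E, w (Pi.single k t)) := by
    intro j k x hjk hx
    have hk : ∀ s, s ≠ 0 → ρ (wk k) (w (Pi.single j s)) =
        kap c • (w (Pi.single j s) + ∑ t ∈ E, w (Pi.single j s + Pi.single k t)) := by
      intro s hs
      rw [hoff k j _ hjk.symm (by simpa using hs), hsplit]
      have hu' : ∀ t, Function.update (Pi.single j s : Fin n → F) k t = Pi.single j s + Pi.single k t :=
        fun t => (hsingle (i := j) _ t (Pi.single_eq_of_ne hjk.symm s)).symm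
      simp only [Pi.single_eq_of_ne hjk.symm, chw_zero_left, one_smul, hu', Pi.single_zero, add_zero]
    have hj : ∀ t, t ≠ 0 → ρ (wk j) (w (Pi.single j x + Pi.single k t)) =
        kap c • (w (Pi.single k t) + ∑ s ∈ E, chw c x s • w (Pi.single j s + Pi.single k t)) := by
      intro t ht
      rw [hoff j k _ hjk (by simpa [Pi.single_eq_of_ne hjk.symm] using ht), hsplit]
      have hu' : ∀ s, Function.update (Pi.single j x + Pi.single k t : Fin n → F) j s = Pi.single j s + Pi.single k t := by
        intro s; funext l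
        rcases eq_or_ne l j with rfl | hl <;> simp [*]
      simp only [Pi.add_apply, Pi.single_eq_same, Pi.single_eq_of_ne hjk, add_zero, hu', chw_zero_right,
        one_smul, Pi.single_zero, zero_add]
    have hc1 := congrArg (fun g => ρ g (w (Pi.single j x))) (wk_comm_wk (F := F) hjk.symm)
    simp only [map_mul, Module.End.mul_apply, hwU, hk x hx, map_smul, map_add, map_sum] at hc1
    have e1 : ∑ s ∈ E, chw c x s • ρ (wk k) (w (Pi.single j s)) =
        ∑ s ∈ E, chw c x s • (kap c • (w (Pi.single j s) + ∑ t ∈ E, w (Pi.single j s + Pi.single k t))) :=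
      Finset.sum_congr rfl fun s hs => by rw [hk s (hE hs)]
    have e2 : ∑ t ∈ E, ρ (wk j) (w (Pi.single j x + Pi.single k t)) =
        ∑ t ∈ E, kap c • (w (Pi.single k t) + ∑ s ∈ E, chw c x s • w (Pi.single j s + Pi.single k t)) :=
      Finset.sum_congr rfl fun t ht => by rw [hj t (hE ht)]
    rw [e1, e2] at hc1
    have h3 := smul_right_injective V hκ hc1
    simp only [smul_add, Finset.smul_sum, Finset.sum_add_distrib, smul_smul] at h3 ⊢
    simp only [mul_comm (chw c x _) (kap c)] at h3
    rw [Finset.sum_comm] at h3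
    linear_combination (norm := abel) h3
  have hfix : ∀ (k : Fin n) (y : V), ρ (wk k) y = kap c • y → y = 0 := by
    intro k y hy
    have h4 : ρ (wk k * wk k * (wk k * wk k)) y = y := by
      rw [wk_sq, ← map_mul]
      have : dgl k (-1 : Fˣ) * dgl k (-1) = 1 := Units.ext (by
        show diagonal _ * diagonal _ = (1 : Matrix (Fin n) (Fin n) F)
        rw [diagonal_mul_diagonal, ← diagonal_one]
        congr 1; funext l
        rcases eq_or_ne l k with rfl | hl <;> simp [*])
      rw [this, map_one, map_one, Module.End.one_apply]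
    simp only [map_mul, Module.End.mul_apply, hy, map_smul, smul_smul, mul_assoc] at h4
    by_contra hy0
    refine kap_pow_four_ne h2 hc ?_
    rw [mul_assoc]
    exact smul_left_injective ℂ hy0 (h4.trans (one_smul ℂ y).symm)
  have hind : ∀ j j' k x x', j ≠ k → j' ≠ k → x ≠ 0 → x' ≠ 0 → U j x = U j' x' := by
    intro j j' k x x' hj hj' hx hx'
    refine sub_eq_zero.1 (hfix k _ ?_)
    rw [map_sub, hA j k x hj hx, hA j' k x' hj' hx', ← smul_sub, add_sub_add_right_eq_sub]
  have hD : ∀ j k x, j ≠ k → x ≠ 0 → ρ (glSp n (dgl k (-1 : Fˣ))) (U j x) = eta F (-1) • U j x := by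
    intro j k x hjk hx
    have hX : ∀ s, s ≠ 0 → ρ (glSp n (dgl k (-1 : Fˣ))) (w (Pi.single j s)) = eta F (-1) • w (Pi.single j s) := by
      intro s hs
      rw [hwg _ _ (by simpa using hs), det_dgl, dgl_mulVec, Pi.single_eq_of_ne hjk.symm, mul_zero]
      have : Function.update (Pi.single j s : Fin n → F) k 0 = Pi.single j s := by
        funext l; rcases eq_or_ne l k with rfl | hl <;> simp [*, hjk.symm]
      rw [this, Units.val_neg, Units.val_one]
    simp only [U, map_sub, map_smul, map_sum, ← Module.End.mul_apply, ← map_mul,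
      ← wk_comm_dgl hjk.symm]
    simp only [map_mul, Module.End.mul_apply, hX x hx, map_smul, smul_sub, Finset.smul_sum, smul_comm (eta F (-1))]
    congr 1
    exact Finset.sum_congr rfl fun s hs => by rw [hX s (hE hs), smul_comm]
  have hsame : ∀ j k x x', j ≠ k → x ≠ 0 → x' ≠ 0 → U j x = U k x' := by
    intro j k x x' hjk hx hx'
    have h1 := hD j k x hjk hx
    rw [← wk_sq, map_mul, Module.End.mul_apply, hA j k x hjk hx, map_smul, map_add, hA j k x hjk hx,
      map_sum, ← kap_sq h2 hc] at h1
    have e1 : ∑ t ∈ E, ρ (wk k) (w (Pi.single k t)) =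
        kap c • (E.card • U k x' + ∑ s ∈ E, (-1 : ℂ) • w (Pi.single k s)) := by
      have : ∀ t ∈ E, ρ (wk k) (w (Pi.single k t)) =
          kap c • (U k x' + ∑ s ∈ E, chw c t s • w (Pi.single k s)) := fun t ht => by
        rw [hwU k t, hind k k j t x' hjk.symm hjk.symm (hE ht) hx']
      rw [Finset.sum_congr rfl this, ← Finset.smul_sum, Finset.sum_add_distrib, Finset.sum_const, Finset.sum_comm]
      congr 2
      refine Finset.sum_congr rfl fun s hs => ?_
      rw [← Finset.sum_smul, sum_chw h2 hc (hE hs)]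
    rw [e1, ← smul_add, smul_smul] at h1
    simp only [neg_smul, one_smul, Finset.sum_neg_distrib] at h1
    have hcard : ((E.card : ℕ) : ℂ) = (Fintype.card F : ℂ) - 1 := by
      rw [Finset.card_erase_of_mem (Finset.mem_univ _), Finset.card_univ,
        Nat.cast_sub Fintype.card_pos, Nat.cast_one]
    rw [← Nat.cast_smul_eq_nsmul ℂ, hcard] at h1
    have hne : ((Fintype.card F : ℂ) - 1) * (kap c * kap c) ≠ 0 := by
      refine mul_ne_zero ?_ (mul_ne_zero hκ hκ)
      rw [sub_ne_zero]
      exact_mod_cast (Fintype.one_lt_card (α := F)).ne'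
    refine smul_right_injective V hne ?_
    simp only
    refine sub_eq_zero.1 ?_
    rw [← sub_eq_zero] at h1
    linear_combination (norm := module) -h1
  set u₀ := U i₀ 1
  have hall : ∀ j x, x ≠ 0 → U j x = u₀ := by
    intro j x hx
    rcases eq_or_ne j i₀ with rfl | hj
    · obtain ⟨k, hk⟩ := exists_ne j
      exact hind j j k x 1 hk.symm hk.symm hx one_ne_zero
    · exact hsame j i₀ x 1 hj hx one_ne_zero
  -- the Levi factor fixes the centre
  have htv : ∀ (a b : Fin n) (hab : a ≠ b) (r : F), ρ (glSp n (tv hab r)) u₀ = u₀ := by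
    intro a b hab r
    rw [← hall a 1 one_ne_zero]
    have hX : ∀ s, s ≠ 0 → ρ (glSp n (tv hab r)) (w (Pi.single a s)) = w (Pi.single a s) := by
      intro s hs
      rw [hwg _ _ (by simpa using hs), det_tv, map_one, one_smul, tv_mulVec, Pi.single_eq_of_ne hab.symm,
        mul_zero, Pi.single_zero, add_zero]
    have hX1 : ρ (glSp n (tv hab r)) (ρ (wk a) (w (Pi.single a 1))) = ρ (wk a) (w (Pi.single a 1)) := by
      have h1 := wk_mul_offd hab (-r)
      rw [neg_neg] at h1
      rw [← Module.End.mul_apply, ← map_mul, ← h1, map_mul, Module.End.mul_apply,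
        hwl _ _ (by simp), qval_offd, Pi.single_eq_of_ne hab.symm]
      simp
    simp only [U, map_sub, map_smul, hX1, map_sum]
    congr 1
    exact Finset.sum_congr rfl fun s hs => by rw [hX s (hE hs)]
  have hdg : ∀ (a : Fin n) (b : Fˣ), ρ (glSp n (dgl a b)) u₀ = eta F (b : F) • u₀ := by
    intro a b
    obtain ⟨j, hj⟩ := exists_ne a
    rw [← hall j 1 one_ne_zero]
    have hX : ∀ s, s ≠ 0 → ρ (glSp n (dgl a b)) (w (Pi.single j s)) = eta F (b : F) • w (Pi.single j s) := by
      intro s hs
      rw [hwg _ _ (by simpa using hs), det_dgl, dgl_mulVec, Pi.single_eq_of_ne hj.symm, mul_zero]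
      congr 2
      funext l; rcases eq_or_ne l a with rfl | hl <;> simp [*, hj.symm]
    simp only [U, map_sub, map_smul, map_sum, ← Module.End.mul_apply, ← map_mul, ← wk_comm_dgl hj.symm]
    simp only [map_mul, Module.End.mul_apply, hX 1 one_ne_zero, map_smul, smul_sub, Finset.smul_sum,
      smul_comm (eta F (b : F))]
    congr 1
    exact Finset.sum_congr rfl fun s hs => by rw [hX s (hE hs), smul_comm]
  have hgl : ∀ A : GL (Fin n) F, ρ (glSp n A) u₀ = eta F (A : Matrix (Fin n) (Fin n) F).det • u₀ := by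
    intro A
    have hmul : ∀ B C : GL (Fin n) F,
        ρ (glSp n B) u₀ = eta F (B : Matrix (Fin n) (Fin n) F).det • u₀ →
        ρ (glSp n C) u₀ = eta F (C : Matrix (Fin n) (Fin n) F).det • u₀ →
        ρ (glSp n (B * C)) u₀ = eta F ((B * C : GL (Fin n) F) : Matrix (Fin n) (Fin n) F).det • u₀ := by
      intro B C hB hC
      rw [map_mul, map_mul, Module.End.mul_apply, hC, map_smul, hB, smul_smul, Units.val_mul, det_mul,
        map_mul, mul_comm]
    refine diagonal_transvection_induction_of_det_ne_zero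
      (fun M => ∀ B : GL (Fin n) F, (B : Matrix (Fin n) (Fin n) F) = M →
        ρ (glSp n B) u₀ = eta F (B : Matrix (Fin n) (Fin n) F).det • u₀)
      _ ((Matrix.isUnit_iff_isUnit_det _).1 A.isUnit).ne_zero ?_ ?_ ?_ A rfl
    · intro D hD B hB
      have hD0 : ∀ j, D j ≠ 0 := fun j => by
        rw [det_diagonal] at hD; exact (Finset.prod_ne_zero_iff.1 hD) j (Finset.mem_univ _)
      suffices h : ∀ s : Finset (Fin n), ∀ C : GL (Fin n) F,
          (C : Matrix (Fin n) (Fin n) F) = diagonal (fun j => if j ∈ s then D j else 1) →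
          ρ (glSp n C) u₀ = eta F (C : Matrix (Fin n) (Fin n) F).det • u₀ from
        h Finset.univ B (by simpa using hB)
      intro s
      induction s using Finset.induction with
      | empty =>
        intro C hC
        obtain rfl : C = 1 := Units.ext (by simp [hC])
        simp
      | @insert a s ha ih =>
        intro C hC
        set b : Fˣ := Units.mk0 (D a) (hD0 a)
        have h1 := ih (C * dgl a b⁻¹) (by
          rw [Units.val_mul, hC]
          show diagonal _ * diagonal _ = _
          rw [diagonal_mul_diagonal]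
          congr 1; funext l
          rcases eq_or_ne l a with rfl | hl <;> simp [*, b])
        have h3 := hmul _ _ h1 (by rw [det_dgl]; exact hdg a b)
        have he' : dgl a b⁻¹ * dgl a b = 1 := Units.ext (by
          show diagonal _ * diagonal _ = (1 : Matrix (Fin n) (Fin n) F)
          rw [diagonal_mul_diagonal, ← diagonal_one]
          congr 1; funext l
          rcases eq_or_ne l a with rfl | hl <;> simp [*])
        rwa [mul_assoc, he', mul_one] at h3
    · intro t B hB
      obtain ⟨a, b, hab, r⟩ := t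
      obtain rfl : B = tv hab r := Units.ext hB
      rw [det_tv, map_one, one_smul]
      exact htv a b hab r
    · intro M N hM hN hPM hPN B hB
      have : B = GeneralLinearGroup.mkOfDetNeZero _ hM * GeneralLinearGroup.mkOfDetNeZero _ hN := Units.ext hB
      rw [this]
      exact hmul _ _ (hPM _ rfl) (hPN _ rfl)
  have hwk0 : ∀ k, ρ (wk k) u₀ = kap c • (u₀ + ∑ t ∈ E, w (Pi.single k t)) := by
    intro k
    obtain ⟨j, hj⟩ := exists_ne k
    rw [← hall j 1 one_ne_zero]
    exact hA j k 1 hj one_ne_zero
  have hlow : ∀ S, ρ (lower S) u₀ = u₀ := by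
    have hoffd : ∀ a b r, ρ (lower (offd a b r)) u₀ = u₀ := by
      intro a b r
      rcases eq_or_ne a b with rfl | hab
      · obtain ⟨k, hk⟩ := exists_ne a
        have hrow : ∀ l, (offd a a r : Matrix (Fin n) (Fin n) F) k l = 0 := fun l => by
          simp [offd, hk.symm]
        rw [← hall k 1 one_ne_zero]
        have hX : ∀ s, s ≠ 0 → ρ (lower (offd a a r)) (w (Pi.single k s)) = w (Pi.single k s) := by
          intro s hs
          rw [hwl _ _ (by simpa using hs), qval_offd, Pi.single_eq_of_ne hk.symm]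
          simp
        simp only [U, map_sub, map_smul, map_sum, ← Module.End.mul_apply, ← map_mul, ← wk_comm_lower hrow]
        simp only [map_mul, Module.End.mul_apply, hX 1 one_ne_zero]
        congr 1
        exact Finset.sum_congr rfl fun s hs => by rw [hX s (hE hs)]
      · have h1 : ρ (lower (offd a b r)) (ρ (wk b) (ρ (wk b) u₀)) = ρ (wk b) (ρ (wk b) u₀) := by
          rw [← Module.End.mul_apply, ← map_mul, ← wk_mul_tv hab.symm, map_mul, Module.End.mul_apply,
            hwk0, map_smul, map_add, htv, map_sum]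
          congr 2
          congr 1
          refine Finset.sum_congr rfl fun s hs => ?_
          rw [hwg _ _ (by simpa using hE hs), det_tv, map_one, one_smul, tv_mulVec,
            Pi.single_eq_of_ne hab, mul_zero, Pi.single_zero, add_zero]
        rw [← Module.End.mul_apply (ρ (wk b)), ← map_mul, wk_sq, hdg, Units.val_neg, Units.val_one,
          map_smul] at h1
        exact smul_right_injective V (left_ne_zero_of_mul_eq_one eta_neg_one_sq) h1
    intro S
    have hS : S = ∑ a, ∑ b, offd a b ((S : Matrix (Fin n) (Fin n) F) a b / 2) := by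
      apply Subtype.ext
      ext x y
      simp only [AddSubmonoidClass.coe_finsetSum, Matrix.sum_apply, offd, Matrix.add_apply,
        Finset.sum_add_distrib, Matrix.single_apply, ite_and]
      simp only [Finset.sum_ite_eq', Finset.mem_univ, if_true, Finset.sum_ite_irrel, Finset.sum_const_zero]
      rw [symMat_apply S y x]
      field_simp
      ring
    rw [hS]
    refine Finset.sum_induction _ (fun X => ρ (lower X) u₀ = u₀) (fun X Y hX hY => ?_) ?_ fun a _ => ?_
    · rw [lower_add, map_mul, Module.End.mul_apply, hY, hX]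
    · rw [lower_zero, map_one, Module.End.one_apply]
    · refine Finset.sum_induction _ (fun X => ρ (lower X) u₀ = u₀) (fun X Y hX hY => ?_) ?_ fun b _ => hoffd a b _
      · rw [lower_add, map_mul, Module.End.mul_apply, hY, hX]
      · rw [lower_zero, map_one, Module.End.one_apply]
  -- assemble
  let v : (Fin n → F) → V := Function.update w 0 u₀
  have hv : ∀ z, z ≠ 0 → v z = w z := fun z hz => Function.update_of_ne hz _ _
  have hv0 : v 0 = u₀ := Function.update_self _ _ _
  have hvg : ∀ (A : GL (Fin n) F) z, ρ (glSp n A) (v z) =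
      eta F (A : Matrix (Fin n) (Fin n) F).det • v ((A : Matrix (Fin n) (Fin n) F) *ᵥ z) := by
    intro A z
    rcases eq_or_ne z 0 with rfl | hz
    · rw [mulVec_zero, hv0]; exact hgl A
    · have hz' : (A : Matrix (Fin n) (Fin n) F) *ᵥ z ≠ 0 := fun h => hz (by
        have := congrArg (((A⁻¹ : GL (Fin n) F) : Matrix (Fin n) (Fin n) F) *ᵥ ·) h
        simpa [mulVec_mulVec] using this)
      rw [hv z hz, hv _ hz']; exact hwg A z hz
  refine ⟨⟨v, fun S z => ?_, hvg, fun k z => ?_, fun z => ?_⟩, ?_⟩
  · rcases eq_or_ne z 0 with rfl | hz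
    · rw [hv0, hlow S]; simp [qval]
    · rw [hv z hz]; exact hwl S z hz
  · by_cases hax : ∀ i, k ≠ i → z i = 0
    · have hz : z = Pi.single k (z k) := by
        funext l
        rcases eq_or_ne l k with rfl | hl
        · simp
        · simp [hl, hax l hl.symm]
      have hup : ∀ s, Function.update z k s = Pi.single k s := by
        intro s; funext l
        rcases eq_or_ne l k with rfl | hl
        · rw [Function.update_self, Pi.single_eq_same]
        · rw [Function.update_of_ne hl, Pi.single_eq_of_ne hl, hax l hl.symm]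
      rw [hsplit]
      simp only [hup, Pi.single_zero, hv0, chw_zero_right, one_smul]
      rw [Finset.sum_congr rfl (fun s hs => by rw [hv _ (by simpa using hE hs)])]
      by_cases hzk : z k = 0
      · rw [hzk, hz, hzk, Pi.single_zero, hv0, hwk0]
        simp [chw_zero_left]
      · conv_lhs => rw [hz, hv _ (by simpa using hzk), hwU, hall k _ hzk]
    · push Not at hax
      obtain ⟨i, hki, hzi⟩ := hax
      rw [hv z (fun h => hzi (by rw [h]; rfl)), hoff k i z hki hzi]
      congr 1
      refine Finset.sum_congr rfl fun s _ => ?_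
      rw [hv _ fun h => hzi (by have := congrFun h i; simpa [Ne.symm hki] using this)]
  · have h1 := hvg (-1 : GL (Fin n) F) z
    rw [hζ, Units.val_neg, Units.val_one, det_neg, det_one, Fintype.card_fin, mul_one, neg_mulVec, one_mulVec,
      map_pow] at h1
    rw [← smul_smul, h1, smul_smul, ← mul_pow, eta_neg_one_sq, one_pow, one_smul]
  · show v e = u
    rw [hv e he0, hwe]

end CfsgLib.Generators.SpWeil
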