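import Cfsg.Agent.Lib.Generators.SpWeil.Elements

/-!
Congruence classes of symmetric matrices of rank at least two are large.
-/

set_option autoImplicit false
set_option linter.unusedSectionVars false

namespace CfsgLib.Generators.SpWeil

open Matrix CfsgLib.InvCentralizers.SympBound CfsgLib.InvCentralizers.AbelianEigen CfsgLib.Laws

variable {F : Type*} [Field F] {m : ℕ}

/-- The bordered matrix `[[a, a xᵀ], [a x, a x xᵀ + M]]`. -/
def blk (a : F) (x : Fin m → F) (M : symMat m F) : symMat (m + 1) F :=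
  ⟨Matrix.of fun i j => Fin.cases (Fin.cases a (fun j => a * x j) j)
    (fun i => Fin.cases (a * x i) (fun j => a * (x i * x j) + (M : Matrix (Fin m) (Fin m) F) i j) j) i, show _ = _ by
    ext i j
    induction i using Fin.cases <;> induction j using Fin.cases <;> simp [symMat_apply M, mul_comm]⟩

/-- The matrix `[[1, 0], [x, A]]`. -/
def bord (A : Matrix (Fin m) (Fin m) F) (x : Fin m → F) : Matrix (Fin (m + 1)) (Fin (m + 1)) F :=
  Matrix.of fun i j => Fin.cases (Fin.cases 1 (fun _ => 0) j) (fun i => Fin.cases (x i) (fun j => A i j) j) i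

theorem det_bord (A : Matrix (Fin m) (Fin m) F) (x : Fin m → F) : (bord A x).det = A.det := by
  rw [det_succ_row_zero, Fin.sum_univ_succ]
  simp [bord, Matrix.submatrix]
  rfl

/-- The bordered invertible matrix. -/
noncomputable def bordGL (A : GL (Fin m) F) (x : Fin m → F) : GL (Fin (m + 1)) F :=
  GeneralLinearGroup.mkOfDetNeZero (bord (A : Matrix (Fin m) (Fin m) F) x) (by
    rw [det_bord]; exact ((Matrix.isUnit_iff_isUnit_det _).1 A.isUnit).ne_zero)

theorem congrSym_bord (A : Matrix (Fin m) (Fin m) F) (x : Fin m → F) (a : F) (M : symMat m F) :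
    congrSym (bord A x) (blk a 0 M) = blk a x (congrSym A M) := by
  apply Subtype.ext
  ext i j
  induction i using Fin.cases <;> induction j using Fin.cases <;>
    simp [congrSym, blk, bord, Matrix.mul_apply, Fin.sum_univ_succ] <;> ring

theorem blk_injective {a : F} (ha : a ≠ 0) :
    Function.Injective (fun p : (Fin m → F) × symMat m F => blk a p.1 p.2) := by
  rintro ⟨x, M⟩ ⟨y, N⟩ h
  have h' := congrArg Subtype.val h
  obtain rfl : x = y := funext fun j => by
    have := congrFun (congrFun h' 0) j.succ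
    simpa [blk, ha] using this
  refine Prod.ext rfl (Subtype.ext (Matrix.ext fun i j => ?_))
  have := congrFun (congrFun h' i.succ) j.succ
  simpa [blk] using this

theorem qval_blk (a : F) (M : symMat m F) (s : F) (y : Fin m → F) :
    qval (blk a 0 M) (Fin.cons s y) = a * (s * s) + qval M y := by
  simp [qval, blk, dotProduct, mulVec, Fin.sum_univ_succ]
  ring

theorem qval_single_zero (C : symMat (m + 1) F) :
    qval C (Pi.single 0 1) = (C : Matrix (Fin (m + 1)) (Fin (m + 1)) F) 0 0 := by
  simp [qval]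

theorem exists_blk {B : symMat (m + 1) F} {a : F} (ha : a ≠ 0) {v : Fin (m + 1) → F} (hv : qval B v = a) :
    ∃ (A : GL (Fin (m + 1)) F) (M : symMat m F),
      congrSym (A : Matrix (Fin (m + 1)) (Fin (m + 1)) F) B = blk a 0 M := by
  have hv0 : v ≠ 0 := fun e => ha (by rw [← hv, e]; simp [qval])
  obtain ⟨A, hA⟩ := exists_transpose_mulVec (v := (Pi.single 0 1 : Fin (m + 1) → F)) (by simp) hv0
  set C := congrSym (A : Matrix (Fin (m + 1)) (Fin (m + 1)) F) B with hC
  have h00 : (C : Matrix (Fin (m + 1)) (Fin (m + 1)) F) 0 0 = a := by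
    rw [← qval_single_zero, hC, qval_congrSym, hA, hv]
  let x : Fin m → F := fun i => (C : Matrix (Fin (m + 1)) (Fin (m + 1)) F) i.succ 0 / a
  let M : symMat m F := ⟨Matrix.of fun i j =>
    (C : Matrix (Fin (m + 1)) (Fin (m + 1)) F) i.succ j.succ - a * (x i * x j), show _ = _ by
      ext i j; simp [symMat_apply C j.succ i.succ, mul_comm]⟩
  have hCb : C = congrSym (bordGL (1 : GL (Fin m) F) x : Matrix (Fin (m + 1)) (Fin (m + 1)) F) (blk a 0 M) := by
    show C = congrSym (bord ((1 : GL (Fin m) F) : Matrix (Fin m) (Fin m) F) x) (blk a 0 M)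
    rw [congrSym_bord, Units.val_one]
    apply Subtype.ext
    ext i j
    induction i using Fin.cases <;> induction j using Fin.cases
    · simp [blk, h00]
    · rename_i j; simp [blk, x, symMat_apply C 0 j.succ, mul_div_cancel₀ _ ha]
    · simp [blk, x, mul_div_cancel₀ _ ha]
    · simp [blk, congrSym, M]
  refine ⟨(bordGL 1 x)⁻¹ * A, M, ?_⟩
  rw [Units.val_mul, congrSym_mul, ← hC, hCb, ← congrSym_mul, ← Units.val_mul, inv_mul_cancel]
  apply Subtype.ext
  simp [congrSym]

variable [Fintype F] [DecidableEq F]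

/-- The number of vectors with a given value. -/
def cnt {n : ℕ} (B : symMat n F) (a : F) : ℕ := ((Finset.univ : Finset (Fin n → F)).filter fun v => qval B v = a).card

theorem cnt_congrSym {n : ℕ} (A : GL (Fin n) F) (B : symMat n F) (a : F) :
    cnt (congrSym (A : Matrix (Fin n) (Fin n) F) B) a = cnt B a := by
  let A' : GL (Fin n) F := GeneralLinearGroup.mkOfDetNeZero (A : Matrix (Fin n) (Fin n) F)ᵀ
    (by rw [det_transpose]; exact ((Matrix.isUnit_iff_isUnit_det _).1 A.isUnit).ne_zero)
  refine Finset.card_bij' (fun v _ => (A' : Matrix (Fin n) (Fin n) F) *ᵥ v)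
    (fun v _ => ((A'⁻¹ : GL (Fin n) F) : Matrix (Fin n) (Fin n) F) *ᵥ v)
    (fun v hv => ?_) (fun v hv => ?_) (fun v _ => ?_) (fun v _ => ?_)
  · simp only [Finset.mem_filter, Finset.mem_univ, true_and] at hv ⊢
    rw [← hv, qval_congrSym]; rfl
  · simp only [Finset.mem_filter, Finset.mem_univ, true_and] at hv ⊢
    rw [qval_congrSym]
    show qval B ((A' : Matrix (Fin n) (Fin n) F) *ᵥ _) = a
    rw [mulVec_mulVec, Units.mul_inv, one_mulVec, hv]
  · rw [mulVec_mulVec, Units.inv_mul, one_mulVec]
  · rw [mulVec_mulVec, Units.mul_inv, one_mulVec]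

theorem cnt_blk (a : F) (M : symMat m F) (α : F) :
    cnt (blk a 0 M) α = ∑ y : Fin m → F,
      ((Finset.univ : Finset F).filter fun s => a * (s * s) + qval M y = α).card := by
  simp only [cnt, Finset.card_filter]
  rw [← (Fin.consEquiv fun _ => F).sum_comp, Fintype.sum_prod_type, Finset.sum_comm]
  refine Finset.sum_congr rfl fun y _ => Finset.sum_congr rfl fun s _ => ?_
  change (if qval (blk a 0 M) (Fin.cons s y) = α then 1 else 0) = _
  rw [qval_blk]

theorem card_roots_le {a : F} (ha : a ≠ 0) (β γ : F) :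
    ((Finset.univ : Finset F).filter fun s => a * (s * s) + γ = β).card ≤ 2 := by
  rcases ((Finset.univ : Finset F).filter fun s => a * (s * s) + γ = β).eq_empty_or_nonempty with h | ⟨r, hr⟩
  · simp [h]
  · simp only [Finset.mem_filter, Finset.mem_univ, true_and] at hr
    refine (Finset.card_le_card (t := {r, -r}) fun s hs => ?_).trans Finset.card_le_two
    simp only [Finset.mem_filter, Finset.mem_univ, true_and] at hs
    have : s * s = r * r := mul_left_cancel₀ ha (by linear_combination hs - hr)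
    simpa using mul_self_eq_mul_self_iff.1 this

theorem cnt_le_two_mul (h2 : (2 : F) ≠ 0) {M : symMat (m + 1) F} (hM : M ≠ 0) (α : F) :
    cnt M α ≤ 2 * Fintype.card F ^ m := by
  obtain ⟨v, hv⟩ := exists_qval_ne h2 hM
  obtain ⟨A, N, hA⟩ := exists_blk hv rfl
  rw [← cnt_congrSym A, hA, cnt_blk]
  refine (Finset.sum_le_sum fun y _ => card_roots_le hv α (qval N y)).trans ?_
  simp [mul_comm]

/-- Binary forms: the split case. -/
theorem card_binary_split (h2 : (2 : F) ≠ 0) {a r : F} (ha : a ≠ 0) (hr : r ≠ 0) (β : F) :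
    ((Finset.univ : Finset (F × F)).filter fun p => a * (p.1 * p.1 - r * r * (p.2 * p.2)) = β).card ≤
      (Fintype.card F - 1) + if β = 0 then Fintype.card F else 0 := by
  have hsub : ∀ p q : F × F, p.1 - r * p.2 = q.1 - r * q.2 → p.1 + r * p.2 = q.1 + r * q.2 → p = q :=
    fun p q e1 e2 => by
      have h1 : p.1 = q.1 := mul_left_cancel₀ h2 (by linear_combination e1 + e2)
      exact Prod.ext h1 (mul_left_cancel₀ hr (by linear_combination e2 - h1))
  split_ifs with hβ
  · subst hβ
    let f : F × F → F ⊕ {x : F // x ≠ 0} := fun p =>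
      if h : p.1 - r * p.2 = 0 then Sum.inl (p.1 + r * p.2) else Sum.inr ⟨_, h⟩
    have := Finset.card_le_card_of_injOn (s := (Finset.univ : Finset (F × F)).filter fun p => a * (p.1 * p.1 - r * r * (p.2 * p.2)) = 0)
      (t := (Finset.univ : Finset (F ⊕ {x : F // x ≠ 0}))) f (fun _ _ => Finset.mem_univ _) fun p hp q hq e => by
        simp only [Finset.coe_filter, Finset.mem_univ, true_and, Set.mem_setOf_eq] at hp hq
        have h0 : ∀ w : F × F, a * (w.1 * w.1 - r * r * (w.2 * w.2)) = 0 → w.1 - r * w.2 ≠ 0 →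
            w.1 + r * w.2 = 0 := fun w hw hne =>
          (mul_eq_zero.1 ((mul_eq_zero.1 (show a * ((w.1 - r * w.2) * (w.1 + r * w.2)) = 0 by
            linear_combination hw)).resolve_left ha)).resolve_left hne
        simp only [f] at e
        by_cases h1 : p.1 - r * p.2 = 0 <;> by_cases h2' : q.1 - r * q.2 = 0 <;>
          simp only [h1, h2', dite_true, dite_false, Sum.inl.injEq, Sum.inr.injEq, Subtype.mk.injEq,
            reduceCtorEq] at e
        · exact hsub p q (h1.trans h2'.symm) e
        · exact hsub p q e ((h0 p hp h1).trans (h0 q hq h2').symm)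
    simp only [Finset.card_univ, Fintype.card_sum, Fintype.card_subtype_compl, Fintype.card_unique] at this
    omega
  · rw [add_zero]
    have := Finset.card_le_card_of_injOn (s := (Finset.univ : Finset (F × F)).filter fun p => a * (p.1 * p.1 - r * r * (p.2 * p.2)) = β)
      (t := (Finset.univ : Finset F).erase 0) (fun p : F × F => p.1 - r * p.2) (fun p hp => by
        simp only [Finset.coe_filter, Finset.mem_univ, true_and, Set.mem_setOf_eq] at hp
        simp only [Finset.coe_erase, Finset.coe_univ, Set.mem_diff, Set.mem_univ, Set.mem_singleton_iff, true_and]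
        intro e
        exact hβ (by rw [← hp]; linear_combination (a * (p.1 + r * p.2)) * e)) fun p hp q hq e => by
        simp only [Finset.coe_filter, Finset.mem_univ, true_and, Set.mem_setOf_eq] at hp hq
        have hne : p.1 - r * p.2 ≠ 0 := fun e' => hβ (by rw [← hp]; linear_combination (a * (p.1 + r * p.2)) * e')
        refine hsub p q e (mul_left_cancel₀ (mul_ne_zero ha hne) ?_)
        dsimp only at e
        linear_combination hp - hq - a * (q.1 + r * q.2) * e
    simpa using this

/-- Binary forms: the anisotropic case. -/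
theorem card_binary_anisotropic (h2 : (2 : F) ≠ 0) {a d : F} (ha : a ≠ 0) (hd : ∀ r : F, r * r ≠ d) (β : F) :
    ((Finset.univ : Finset (F × F)).filter fun p => a * (p.1 * p.1 - d * (p.2 * p.2)) = β).card ≤
      Fintype.card F + 1 := by
  set s := (Finset.univ : Finset (F × F)).filter fun p => a * (p.1 * p.1 - d * (p.2 * p.2)) = β
  rcases s.eq_empty_or_nonempty with h | ⟨P, hP⟩
  · simp [h]
  have hd0 : d ≠ 0 := fun e => hd 0 (by rw [e]; ring)
  let f : F × F → Option F := fun p => if p.2 = P.2 then none else some ((p.1 - P.1) / (p.2 - P.2))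
  let miss : Option F := if P.1 = 0 then none else some (d * P.2 / P.1)
  have hmem : ∀ p ∈ s, a * (p.1 * p.1 - d * (p.2 * p.2)) = a * (P.1 * P.1 - d * (P.2 * P.2)) := fun p hp =>
    (Finset.mem_filter.1 hp).2.trans (Finset.mem_filter.1 hP).2.symm
  have key : ∀ p ∈ s.erase P, ∀ μ, p.2 ≠ P.2 → (p.1 - P.1) / (p.2 - P.2) = μ →
      (μ * μ - d) * (p.2 - P.2) = -2 * (μ * P.1 - d * P.2) ∧ p.1 = P.1 + μ * (p.2 - P.2) := by
    intro p hp μ hne hμ
    have hne' := sub_ne_zero.2 hne
    have h1 : p.1 = P.1 + μ * (p.2 - P.2) := by rw [← hμ, div_mul_cancel₀ _ hne']; ring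
    refine ⟨?_, h1⟩
    have h3 := mul_left_cancel₀ ha (hmem p (Finset.mem_of_mem_erase hp))
    rw [h1] at h3
    refine mul_left_cancel₀ hne' ?_
    linear_combination h3
  have hvert : ∀ p ∈ s.erase P, p.2 = P.2 → p.1 = -P.1 ∧ P.1 ≠ 0 := by
    intro p hp he
    have h3 := mul_left_cancel₀ ha (hmem p (Finset.mem_of_mem_erase hp))
    rw [he] at h3
    have h4 : p.1 * p.1 = P.1 * P.1 := by linear_combination h3
    have hne : p.1 ≠ P.1 := fun e => Finset.ne_of_mem_erase hp (Prod.ext e he)
    have h5 := (mul_self_eq_mul_self_iff.1 h4).resolve_left hne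
    exact ⟨h5, fun e => hne (by rw [h5, e, neg_zero])⟩
  have := Finset.card_le_card_of_injOn (s := s.erase P) (t := (Finset.univ : Finset (Option F)).erase miss) f
    (fun p hp => by
      have hp' : p ∈ s.erase P := hp
      simp only [Finset.coe_erase, Finset.coe_univ, Set.mem_diff, Set.mem_univ, Set.mem_singleton_iff, true_and]
      simp only [f, miss]
      by_cases he : p.2 = P.2
      · simp [he, (hvert p hp' he).2]
      · simp only [he, if_false]
        by_cases hP0 : P.1 = 0
        · simp [hP0]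
        · simp only [hP0, if_false, Option.some.injEq]
          intro e
          obtain ⟨h3, -⟩ := key p hp' _ he e
          have h4 : d * P.2 / P.1 * P.1 - d * P.2 = 0 := by rw [div_mul_cancel₀ _ hP0, sub_self]
          rw [h4, mul_zero] at h3
          exact hd _ (sub_eq_zero.1 ((mul_eq_zero.1 h3).resolve_right (sub_ne_zero.2 he))))
    (fun p hp q hq e => by
      have hp' : p ∈ s.erase P := hp
      have hq' : q ∈ s.erase P := hq
      simp only [f] at e
      by_cases he : p.2 = P.2 <;> by_cases he' : q.2 = P.2 <;>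
        simp only [he, he', if_true, if_false, Option.some.injEq, reduceCtorEq] at e
      · exact Prod.ext ((hvert p hp' he).1.trans (hvert q hq' he').1.symm) (he.trans he'.symm)
      · obtain ⟨h3, h4⟩ := key p hp' _ he rfl
        obtain ⟨h5, h6⟩ := key q hq' _ he' e.symm
        have h7 := sub_ne_zero.2 (hd ((p.1 - P.1) / (p.2 - P.2)))
        have h8 : p.2 - P.2 = q.2 - P.2 := mul_left_cancel₀ h7 (h3.trans h5.symm)
        exact Prod.ext (by rw [h4, h6, h8]) (sub_left_inj.1 h8))
  rw [Finset.card_erase_of_mem hP, Finset.card_erase_of_mem (Finset.mem_univ _), Finset.card_univ,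
    Fintype.card_option] at this
  omega

theorem cnt_le_rank_two (h2 : (2 : F) ≠ 0) {a b α : F} (ha : a ≠ 0) (hb : b ≠ 0) (hα : α ≠ 0)
    (M : symMat m F) :
    cnt (blk a 0 (blk b 0 M)) α ≤ (Fintype.card F + 1) * Fintype.card F ^ m := by
  have hN : cnt (blk a 0 (blk b 0 M)) α = ∑ y : Fin m → F,
      ((Finset.univ : Finset (F × F)).filter fun p => a * (p.1 * p.1 - -b / a * (p.2 * p.2)) = α - qval M y).card := by
    simp only [cnt, Finset.card_filter]
    rw [← (Fin.consEquiv fun _ => F).sum_comp, Fintype.sum_prod_type]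
    simp only [Fintype.sum_prod_type]
    rw [Finset.sum_comm (s := (Finset.univ : Finset (Fin m → F)))]
    refine Finset.sum_congr rfl fun s _ => ?_
    rw [← (Fin.consEquiv fun _ => F).sum_comp, Fintype.sum_prod_type, Finset.sum_comm (s := (Finset.univ : Finset (Fin m → F)))]
    refine Finset.sum_congr rfl fun t _ => Finset.sum_congr rfl fun y _ => ?_
    have hiff : (qval (blk a 0 (blk b 0 M)) (Fin.cons s (Fin.cons t y)) = α) ↔
        a * (s * s - -b / a * (t * t)) = α - qval M y := by
      rw [qval_blk, qval_blk]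
      constructor <;> intro h
      · rw [← h]; field_simp; ring
      · rw [eq_sub_iff_add_eq] at h; rw [← h]; field_simp; ring
    change (if qval (blk a 0 (blk b 0 M)) (Fin.cons s (Fin.cons t y)) = α then 1 else 0) = _
    exact if_congr hiff rfl rfl
  rw [hN]
  by_cases hsq : ∃ r : F, r * r = -b / a
  · obtain ⟨r, hr⟩ := hsq
    have hr0 : r ≠ 0 := by
      rintro rfl
      rw [mul_zero, eq_comm, div_eq_zero_iff, neg_eq_zero] at hr
      exact hr.elim hb ha
    rw [← hr]
    refine (Finset.sum_le_sum fun y _ => card_binary_split h2 ha hr0 _).trans ?_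
    simp only [sub_eq_zero]
    rw [Finset.sum_add_distrib, Finset.sum_ite, Finset.sum_const, Finset.sum_const_zero, add_zero,
      Finset.sum_const, Finset.card_univ, Fintype.card_fun, Fintype.card_fin, smul_eq_mul, smul_eq_mul]
    have hq : 1 ≤ Fintype.card F := Fintype.card_pos
    have hZ : ((Finset.univ : Finset (Fin m → F)).filter fun y => α = qval M y).card * Fintype.card F ≤
        2 * Fintype.card F ^ m := by
      rcases eq_or_ne M 0 with rfl | hM
      · simp [qval, hα]
      · cases m with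
        | zero => exact absurd (Subtype.ext (Matrix.ext fun i => i.elim0)) hM
        | succ k =>
          rw [pow_succ, ← mul_assoc]
          refine Nat.mul_le_mul_right _ ((le_of_eq ?_).trans (cnt_le_two_mul h2 hM α))
          simp only [cnt, eq_comm]
    obtain ⟨k, hk⟩ := Nat.exists_eq_add_of_le hq
    rw [hk] at hZ ⊢
    simp only [Nat.add_sub_cancel_left]
    nlinarith [hZ]
  · push Not at hsq
    refine (Finset.sum_le_sum fun y _ => card_binary_anisotropic h2 ha hsq _).trans ?_
    simp [mul_comm]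

/-- A congruence class of rank at least two is large. -/
theorem orbit_card_two (h2 : (2 : F) ≠ 0) {B : symMat (m + 2) F}
    (hB : ¬ ∃ (c : F) (z : Fin (m + 2) → F), (B : Matrix (Fin (m + 2)) (Fin (m + 2)) F) = c • vecMulVec z z)
    (O : Finset (symMat (m + 2) F))
    (hO : ∀ C, C ∈ O ↔ ∃ A : GL (Fin (m + 2)) F, C = congrSym (A : Matrix (Fin (m + 2)) (Fin (m + 2)) F) B) :
    (Fintype.card F ^ (m + 2) - 1) * (Fintype.card F ^ (m + 2) - Fintype.card F) ≤
      O.card * (2 * (Fintype.card F + 1)) := by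
  classical
  haveI : Fintype (symMat (m + 1) F) := Fintype.ofFinite _
  set q := Fintype.card F with hq
  have hB0 : B ≠ 0 := fun e => hB ⟨0, 0, by simp [e]⟩
  obtain ⟨v₀, hv₀⟩ := exists_qval_ne h2 hB0
  set a := qval B v₀
  obtain ⟨A₀, M, hA₀⟩ := exists_blk hv₀ (rfl : qval B v₀ = a)
  have hM : M ≠ 0 := by
    rintro rfl
    refine hB ⟨a, ((A₀⁻¹ : GL (Fin (m + 2)) F) : Matrix (Fin (m + 2)) (Fin (m + 2)) F) *ᵥ Pi.single 0 1, ?_⟩
    have h1 : congrSym ((A₀⁻¹ : GL (Fin (m + 2)) F) : Matrix (Fin (m + 2)) (Fin (m + 2)) F) (blk a 0 0) = B := by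
      rw [← hA₀, ← congrSym_mul, ← Units.val_mul, inv_mul_cancel]
      exact Subtype.ext (by simp [congrSym])
    have h3 : ((blk a (0 : Fin (m + 1) → F) 0 : symMat (m + 2) F) : Matrix (Fin (m + 2)) (Fin (m + 2)) F) =
        a • vecMulVec (Pi.single 0 1) (Pi.single 0 1) := by
      ext i j
      induction i using Fin.cases <;> induction j using Fin.cases <;> simp [blk, vecMulVec]
    conv_lhs => rw [← h1]
    simp only [congrSym, h3, Matrix.mul_smul, Matrix.smul_mul, mul_vecMulVec, vecMulVec_mul, vecMul_transpose]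
  obtain ⟨w, hw⟩ := exists_qval_ne h2 hM
  obtain ⟨A₁, M', hA₁⟩ := exists_blk hw (rfl : qval M w = qval M w)
  have hinO : ∀ {C} (A : GL (Fin (m + 2)) F), C ∈ O →
      congrSym (A : Matrix (Fin (m + 2)) (Fin (m + 2)) F) C ∈ O := fun A hC => by
    obtain ⟨A', rfl⟩ := (hO _).1 hC
    exact (hO _).2 ⟨A * A', by rw [Units.val_mul, congrSym_mul]⟩
  have hC₁ : blk a 0 M ∈ O := (hO _).2 ⟨A₀, hA₀.symm⟩
  have hcnt : ∀ C ∈ O, cnt C a ≤ (q + 1) * q ^ m := by
    intro C hC
    obtain ⟨A, rfl⟩ := (hO _).1 hC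
    rw [cnt_congrSym, ← cnt_congrSym A₀, hA₀, ← cnt_congrSym (bordGL A₁ 0)]
    show cnt (congrSym (bord (A₁ : Matrix (Fin (m + 1)) (Fin (m + 1)) F) 0) (blk a 0 M)) a ≤ _
    rw [congrSym_bord, hA₁]
    exact cnt_le_rank_two h2 hv₀ hw hv₀ M'
  let O' : Finset (symMat (m + 1) F) := Finset.univ.filter fun C =>
    ∃ A : GL (Fin (m + 1)) F, C = congrSym (A : Matrix (Fin (m + 1)) (Fin (m + 1)) F) M
  have hO' : q ^ (m + 1) - 1 ≤ 2 * O'.card := orbit_card h2 hM O'
    (fun A => Finset.mem_filter.2 ⟨Finset.mem_univ _, A, rfl⟩) (fun C hC => (Finset.mem_filter.1 hC).2)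
  have hfib : ∀ v : Fin (m + 2) → F, v ≠ 0 →
      q ^ (m + 1) * O'.card ≤ (O.filter fun C => qval C v = a).card := by
    intro v hv
    obtain ⟨A, hA⟩ := exists_transpose_mulVec hv (v := v) (w := (Pi.single 0 1 : Fin (m + 2) → F)) (by simp)
    calc q ^ (m + 1) * O'.card = ((Finset.univ : Finset (Fin (m + 1) → F)) ×ˢ O').card := by simp [hq]
      _ = (((Finset.univ : Finset (Fin (m + 1) → F)) ×ˢ O').image fun p =>
            congrSym (A : Matrix (Fin (m + 2)) (Fin (m + 2)) F) (blk a p.1 p.2)).card := by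
          rw [Finset.card_image_of_injective]
          intro p p' e
          refine blk_injective hv₀ ?_
          have := congrArg (congrSym ((A⁻¹ : GL (Fin (m + 2)) F) : Matrix (Fin (m + 2)) (Fin (m + 2)) F)) e
          simp only [← congrSym_mul, ← Units.val_mul, inv_mul_cancel] at this
          simpa [congrSym] using this
      _ ≤ _ := Finset.card_le_card fun C hC => by
          obtain ⟨⟨x, N⟩, hp, rfl⟩ := Finset.mem_image.1 hC
          obtain ⟨A', rfl⟩ := (Finset.mem_filter.1 (Finset.mem_product.1 hp).2).2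
          refine Finset.mem_filter.2 ⟨hinO A ?_, ?_⟩
          · rw [← congrSym_bord]
            exact hinO (bordGL A' x) hC₁
          · rw [qval_congrSym, hA, qval_single_zero]
            simp [blk]
  have hsum : ∑ v : Fin (m + 2) → F, (O.filter fun C => qval C v = a).card = ∑ C ∈ O, cnt C a := by
    simp only [cnt, Finset.card_filter]
    exact Finset.sum_comm
  have h1 : (q ^ (m + 2) - 1) * (q ^ (m + 1) * O'.card) ≤ O.card * ((q + 1) * q ^ m) := by
    calc (q ^ (m + 2) - 1) * (q ^ (m + 1) * O'.card)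
        = ∑ _v ∈ (Finset.univ : Finset (Fin (m + 2) → F)).erase 0, q ^ (m + 1) * O'.card := by simp [hq]
      _ ≤ ∑ v ∈ (Finset.univ : Finset (Fin (m + 2) → F)).erase 0, (O.filter fun C => qval C v = a).card :=
          Finset.sum_le_sum fun v hv => hfib v (Finset.ne_of_mem_erase hv)
      _ ≤ _ := Finset.sum_le_sum_of_subset (Finset.erase_subset _ _)
      _ = _ := hsum
      _ ≤ _ := (Finset.sum_le_sum hcnt).trans (by rw [Finset.sum_const, smul_eq_mul])
  have e : q ^ (m + 2) - q = q * (q ^ (m + 1) - 1) := by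
    rw [Nat.mul_sub, ← pow_succ', mul_one]
  refine Nat.le_of_mul_le_mul_right ?_ (pow_pos (Fintype.card_pos (α := F)) m)
  calc (q ^ (m + 2) - 1) * (q ^ (m + 2) - q) * q ^ m
      = (q ^ (m + 2) - 1) * (q ^ (m + 1) * (q ^ (m + 1) - 1)) := by rw [e]; ring
    _ ≤ (q ^ (m + 2) - 1) * (q ^ (m + 1) * (2 * O'.card)) :=
        Nat.mul_le_mul_left _ (Nat.mul_le_mul_left _ hO')
    _ = 2 * ((q ^ (m + 2) - 1) * (q ^ (m + 1) * O'.card)) := by ring
    _ ≤ 2 * (O.card * ((q + 1) * q ^ m)) := Nat.mul_le_mul_left _ h1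
    _ = _ := by ring

section action

variable {n : ℕ} {V : Type*} [AddCommGroup V] [Module ℂ V]
  (ρ : Representation ℂ (Matrix.symplecticGroup (Fin n) F) V)

/-- All characters of the lower unipotent group have rank at most one. -/
def RankOne : Prop :=
  ∀ B w, w ∈ eig (pairing (n := n) (F := F)) (fun S => ρ (lower S)) B → w ≠ 0 →
    ∃ (c : F) (z : Fin n → F), (B : Matrix (Fin n) (Fin n) F) = c • vecMulVec z z

theorem rankOne_of_finrank_lt [FiniteDimensional ℂ V] (h2 : (2 : F) ≠ 0) (hn : 2 ≤ n)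
    (hd : Module.finrank ℂ V * (2 * (Fintype.card F + 1)) <
      (Fintype.card F ^ n - 1) * (Fintype.card F ^ n - Fintype.card F)) : RankOne ρ := by
  classical
  obtain ⟨m, rfl⟩ : ∃ m, n = m + 2 := ⟨n - 2, by omega⟩
  haveI : Fintype (symMat (m + 2) F) := Fintype.ofFinite _
  intro B w hw hw0
  by_contra hB
  let O : Finset (symMat (m + 2) F) := Finset.univ.filter fun C =>
    ∃ A : GL (Fin (m + 2)) F, C = congrSym (A : Matrix (Fin (m + 2)) (Fin (m + 2)) F) B
  have h1 := orbit_card_two h2 hB O (fun C => by simp [O])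
  have h3 : O.card ≤ Module.finrank ℂ V := card_le_finrank (setup ρ h2) O fun C hC => by
    obtain ⟨A, rfl⟩ := (Finset.mem_filter.1 hC).2
    refine ⟨_, glSp_mem_eig ρ A hw, fun h0 => hw0 ?_⟩
    have h5 : ρ (glSp _ A⁻¹) (ρ (glSp _ A) w) = 0 := by rw [h0, LinearMap.map_zero]
    rwa [← Module.End.mul_apply, ← map_mul, ← map_mul, inv_mul_cancel, map_one, map_one,
      Module.End.one_apply] at h5
  have := Nat.mul_le_mul_right (2 * (Fintype.card F + 1)) h3
  omega

end action

end CfsgLib.Generators.SpWeil
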