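import Cfsg.Agent.Lib.Generators.SpWeil.Orbit
import Mathlib.NumberTheory.GaussSum

/-!
Weight spaces of a representation of rank one: the action of an elementary Weyl element
and of the stabiliser of a weight.
-/

set_option autoImplicit false
set_option linter.unusedSectionVars false

namespace CfsgLib.Generators.SpWeil

open Matrix CfsgLib.InvCentralizers.SympBound CfsgLib.InvCentralizers.AbelianEigen CfsgLib.Laws

variable {F : Type*} [Field F] [Fintype F] [DecidableEq F] {n : ℕ}

/-- The quadratic character with complex values. -/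
noncomputable def eta (F : Type*) [Field F] [Fintype F] [DecidableEq F] : MulChar F ℂ :=
  (quadraticChar F).ringHomComp (Int.castRingHom ℂ)

theorem eta_mul_self {a : F} (ha : a ≠ 0) : eta F a * eta F a = 1 := by
  have h := quadraticChar_sq_one ha
  rw [pow_two] at h
  simp only [eta, MulChar.ringHomComp_apply, ← map_mul, h, map_one]

theorem eta_inv {a : F} (ha : a ≠ 0) : eta F a⁻¹ = eta F a := by
  have h := eta_mul_self ha
  have h' : eta F a * eta F a⁻¹ = 1 := by rw [← map_mul, mul_inv_cancel₀ ha, map_one]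
  exact mul_left_cancel₀ (left_ne_zero_of_mul_eq_one h) (h'.trans h.symm)

theorem eta_neg_one_sq : eta F (-1) * eta F (-1) = 1 := eta_mul_self (neg_ne_zero.2 one_ne_zero)

/-- The quadratic Gauss sum. -/
noncomputable def gau (c : F) : ℂ := ∑ t : F, psi F (c * (t * t))

theorem ringChar_ne_two (h2 : (2 : F) ≠ 0) : ringChar F ≠ 2 := fun h => h2 (by
  have := ringChar.Nat.cast_ringChar (R := F)
  rw [h] at this
  exact_mod_cast this)

theorem gau_eq_gaussSum (h2 : (2 : F) ≠ 0) {c : F} (hc : c ≠ 0) :
    gau c = gaussSum (eta F) ((psi F).mulShift c) := by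
  have h1 : gau c = ∑ x : F, ((quadraticChar F x : ℂ) + 1) * psi F (c * x) := by
    rw [gau, ← Finset.sum_fiberwise (Finset.univ : Finset F) (fun t => t * t)]
    refine Finset.sum_congr rfl fun x _ => ?_
    rw [Finset.sum_congr rfl fun t ht => by rw [(Finset.mem_filter.1 ht).2], Finset.sum_const, nsmul_eq_mul]
    have hs := quadraticChar_card_sqrts (ringChar_ne_two h2) x
    have he : ({t | t ^ 2 = x} : Set F).toFinset = (Finset.univ : Finset F).filter fun t => t * t = x := by
      ext t; simp [pow_two]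
    rw [he] at hs
    congr 1
    exact_mod_cast hs
  have h3 : ∑ x : F, psi F (c * x) = 0 := by
    have := AddChar.sum_mulShift c (psi_prim (F := F))
    rw [if_neg hc, Nat.cast_zero] at this
    simpa only [mul_comm] using this
  rw [h1]
  simp only [add_mul, one_mul, Finset.sum_add_distrib, h3, add_zero]
  simp [gaussSum, eta, AddChar.mulShift_apply]

theorem gau_mul (h2 : (2 : F) ≠ 0) {c b : F} (hc : c ≠ 0) (hb : b ≠ 0) :
    gau (c * b) = eta F b * gau c := by
  rw [gau_eq_gaussSum h2 (mul_ne_zero hc hb), gau_eq_gaussSum h2 hc]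
  have h := gaussSum_mulShift (eta F) ((psi F).mulShift c) (Units.mk0 b hb)
  rw [Units.val_mk0, AddChar.mulShift_mulShift] at h
  rw [← h, ← mul_assoc, eta_mul_self hb, one_mul]

theorem gau_sq (h2 : (2 : F) ≠ 0) {c : F} (hc : c ≠ 0) :
    gau c ^ 2 = eta F (-1) * (Fintype.card F : ℂ) := by
  rw [gau_eq_gaussSum h2 hc]
  refine gaussSum_sq ?_ ?_ ?_
  · exact (MulChar.ringHomComp_ne_one_iff Int.cast_injective).2 (quadraticChar_ne_one (ringChar_ne_two h2))
  · exact (quadraticChar_isQuadratic F).comp _
  · intro a ha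
    rw [AddChar.mulShift_mulShift]
    exact psi_prim (mul_ne_zero hc ha)

theorem gau_ne_zero (h2 : (2 : F) ≠ 0) {c : F} (hc : c ≠ 0) : gau c ≠ 0 := by
  intro h
  have := gau_sq h2 hc
  rw [h, zero_pow two_ne_zero] at this
  exact mul_ne_zero (left_ne_zero_of_mul_eq_one eta_neg_one_sq)
    (Nat.cast_ne_zero.2 Fintype.card_ne_zero) this.symm

/-- The constant of an elementary Weyl element. -/
noncomputable def kap (c : F) : ℂ := (gau (-c))⁻¹

theorem kap_sq (h2 : (2 : F) ≠ 0) {c : F} (hc : c ≠ 0) :
    (Fintype.card F : ℂ) * (kap c * kap c) = eta F (-1) := by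
  rw [kap, ← mul_inv, ← pow_two, gau_sq h2 (neg_ne_zero.2 hc), mul_inv, mul_left_comm,
    mul_inv_cancel₀ (Nat.cast_ne_zero.2 Fintype.card_ne_zero), mul_one]
  exact inv_eq_of_mul_eq_one_left eta_neg_one_sq

theorem kap_pow_four_ne (h2 : (2 : F) ≠ 0) {c : F} (hc : c ≠ 0) :
    kap c * kap c * (kap c * kap c) ≠ 1 := by
  intro h
  have h1 := kap_sq h2 hc
  have h3 : (Fintype.card F : ℂ) * Fintype.card F = 1 := by
    have := congrArg₂ (· * ·) h1 h1
    simp only [eta_neg_one_sq] at this
    linear_combination this - (Fintype.card F : ℂ) * Fintype.card F * h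
  have h4 : Fintype.card F * Fintype.card F = 1 := by exact_mod_cast h3
  have := Fintype.one_lt_card (α := F)
  rw [Nat.eq_one_of_mul_eq_one_right h4] at this
  exact lt_irrefl _ this

variable {V : Type*} [AddCommGroup V] [Module ℂ V]
  (ρ : Representation ℂ (Matrix.symplecticGroup (Fin n) F) V)

/-- The rank-one symmetric matrix of a vector. -/
def outer (c : F) (z : Fin n → F) : symMat n F :=
  ⟨c • vecMulVec z z, show _ = _ by rw [transpose_smul, transpose_vecMulVec]⟩

theorem pairing_outer (c : F) (z : Fin n → F) (S : symMat n F) :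
    pairing (outer c z) S = psi F (c * qval S z) := by
  simp only [pairing, outer, Matrix.smul_mul, trace_smul, smul_eq_mul]
  congr 2
  rw [trace_mul_comm, mul_vecMulVec, trace_vecMulVec, dotProduct_comm, qval]

/-- The weight space. -/
noncomputable def Wt (c : F) (z : Fin n → F) : Submodule ℂ V :=
  eig (pairing (n := n) (F := F)) (fun S => ρ (lower S)) (outer c z)

theorem mem_Wt {c : F} {z : Fin n → F} {v : V} :
    v ∈ Wt ρ c z ↔ ∀ S, ρ (lower S) v = psi F (c * qval S z) • v := by
  simp only [← pairing_outer]; rfl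

theorem glSp_Wt (A : GL (Fin n) F) {c : F} {z : Fin n → F} {v : V} (hv : v ∈ Wt ρ c z) :
    ρ (glSp n A) v ∈ Wt ρ c ((A : Matrix (Fin n) (Fin n) F) *ᵥ z) := by
  rw [mem_Wt] at hv ⊢
  intro S
  rw [← Module.End.mul_apply, ← map_mul, lower_mul_glSp, map_mul, Module.End.mul_apply, hv,
    map_smul, qval_congrSym, transpose_transpose]

/-- Translation along the `k`th coordinate. -/
def shiftGL {k i : Fin n} (hki : k ≠ i) (z : Fin n → F) (t : F) : GL (Fin n) F := tv hki (t / z i)

theorem shiftGL_mulVec {k i : Fin n} (hki : k ≠ i) {z : Fin n → F} (hzi : z i ≠ 0) (t : F) :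
    (shiftGL hki z t : Matrix (Fin n) (Fin n) F) *ᵥ z = z + Pi.single k t := by
  rw [shiftGL, tv_mulVec, div_mul_cancel₀ _ hzi]

section

variable [FiniteDimensional ℂ V] (h2 : (2 : F) ≠ 0) (hR : RankOne ρ) {c : F} (hc : c ≠ 0)
include h2 hR hc

set_option maxHeartbeats 1600000 in
theorem exists_wk_decomp {k i : Fin n} (hki : k ≠ i) {z : Fin n → F} (hzk : z k = 0) (hzi : z i ≠ 0)
    {v : V} (hv : v ∈ Wt ρ c z) :
    ∃ u ∈ Wt ρ c z, ρ (wk k) v = ∑ t : F, ρ (glSp n (shiftGL hki z t)) u := by
  classical
  haveI : Fintype (symMat n F) := Fintype.ofFinite _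
  have hset := setup ρ h2
  set y := ρ (wk k) v with hy
  set N : ℂ := (Fintype.card (symMat n F) : ℂ)
  have hN : N ≠ 0 := Nat.cast_ne_zero.2 Fintype.card_ne_zero
  let pj : symMat n F → V := fun B => proj (pairing (n := n) (F := F)) (fun S => ρ (lower S)) B y
  let b : F → symMat n F := fun t => outer c (z + Pi.single k t)
  have hb : Function.Injective b := fun s t e => by
    have h1 := congrFun (congrFun (congrArg Subtype.val e) i) k
    simp only [b, outer, Matrix.smul_apply, vecMulVec_apply, Pi.add_apply, Pi.single_eq_same,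
      Pi.single_eq_of_ne hki.symm, hzk, add_zero, zero_add, smul_eq_mul] at h1
    exact mul_left_cancel₀ hzi (mul_left_cancel₀ hc h1)
  have hsupp : ∀ B, pj B ≠ 0 → ∃ t, b t = B := by
    intro B hB
    have hmem := proj_apply_mem hset B y
    obtain ⟨d, w, hw⟩ := hR B _ hmem hB
    have hSy : ∀ S : symMat n F, (∀ l, (S : Matrix (Fin n) (Fin n) F) k l = 0) →
        pairing B S = pairing (outer c z) S := by
      intro S hS
      have h1 : ρ (lower S) y = pairing (outer c z) S • y := by
        rw [hy, ← Module.End.mul_apply, ← map_mul, ← wk_comm_lower hS, map_mul, Module.End.mul_apply,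
          mem_Wt ρ |>.1 hv, map_smul, pairing_outer]
      have h3 : ρ (lower S) (pj B) = proj (pairing (n := n) (F := F)) (fun S => ρ (lower S)) B (ρ (lower S) y) := by
        simp only [pj, proj, LinearMap.sum_apply, LinearMap.smul_apply, map_sum, map_smul,
          ← Module.End.mul_apply, ← map_mul, ← lower_add, add_comm]
      have h4 : ρ (lower S) (pj B) = pairing B S • pj B := hmem S
      rw [h1, map_smul] at h3
      exact smul_left_injective ℂ hB (h4.symm.trans h3)
    have hent : ∀ a e : Fin n, a ≠ k → e ≠ k → d * (w a * w e) = c * (z a * z e) := by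
      intro a e ha he
      by_contra hne
      obtain ⟨r, hr⟩ := exists_psi_ne (F := F) (mul_ne_zero h2 (sub_ne_zero.2 hne))
      refine hr ?_
      have hrow : ∀ l, (offd a e r : Matrix (Fin n) (Fin n) F) k l = 0 := fun l => by
        simp [offd, ha, he]
      have hB' : B = outer d w := Subtype.ext hw
      have h1 := hSy _ hrow
      rw [hB', pairing_outer, pairing_outer, qval_offd, qval_offd] at h1
      have hne0 : psi F (c * (2 * (r * (z a * z e)))) ≠ 0 := by
        intro h0
        have := AddChar.map_add_eq_mul (psi F) (c * (2 * (r * (z a * z e)))) (-(c * (2 * (r * (z a * z e)))))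
        rw [add_neg_cancel, h0, zero_mul, AddChar.map_zero_eq_one] at this
        exact one_ne_zero this
      rw [show 2 * (d * (w a * w e) - c * (z a * z e)) * r =
        d * (2 * (r * (w a * w e))) - c * (2 * (r * (z a * z e))) by ring, AddChar.map_sub_eq_div, h1,
        div_self hne0]
    have hii := hent i i hki.symm hki.symm
    have hcz : c * (z i * z i) ≠ 0 := mul_ne_zero hc (mul_ne_zero hzi hzi)
    have hwi : w i ≠ 0 := fun e => hcz (by rw [← hii, e]; ring)
    refine ⟨w k * z i / w i, Subtype.ext ?_⟩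
    have hw' : ∀ a, (z + Pi.single k (w k * z i / w i) : Fin n → F) a = w a * (z i / w i) := by
      intro a
      rcases eq_or_ne a k with rfl | ha
      · simp [hzk]; ring
      · have h1 := hent a i ha hki.symm
        simp only [Pi.add_apply, Pi.single_eq_of_ne ha, add_zero]
        rw [mul_div_assoc', eq_div_iff hwi]
        refine mul_left_cancel₀ (mul_ne_zero hc hzi) ?_
        linear_combination w a * hii - w i * h1
    rw [hw]
    ext a e
    simp only [b, outer, Matrix.smul_apply, vecMulVec_apply, smul_eq_mul, hw']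
    field_simp
    linear_combination -(w a * w e) * hii
  have hsum : N • y = ∑ t, pj (b t) := by
    rw [← sum_proj hset y, ← Finset.sum_image (f := pj) hb.injOn]
    refine (Finset.sum_subset (Finset.subset_univ _) fun B _ hB => ?_).symm
    by_contra hne
    obtain ⟨t, rfl⟩ := hsupp B hne
    exact hB (Finset.mem_image_of_mem _ (Finset.mem_univ _))
  have hinv : ∀ t, ρ (glSp n (shiftGL hki z t)) y = y := by
    intro t
    have hq := wk_mul_offd hki (r := -(t / z i))
    rw [neg_neg] at hq
    rw [hy, shiftGL, ← Module.End.mul_apply, ← map_mul, ← hq, map_mul, Module.End.mul_apply,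
      mem_Wt ρ |>.1 hv, qval_offd, hzk]
    simp
  have hshift : ∀ t, pj (b t) = ρ (glSp n (shiftGL hki z t)) (pj (b 0)) := by
    intro t
    set g := ρ (glSp n (shiftGL hki z t))
    have hmem : ∀ s, g (pj (b s)) ∈ eig (pairing (n := n) (F := F)) (fun S => ρ (lower S)) (b (s + t)) := by
      intro s
      have h0 : pj (b s) ∈ Wt ρ c (z + Pi.single k s) := proj_apply_mem hset _ y
      have h1 := glSp_Wt ρ (shiftGL hki z t) h0
      rwa [mulVec_add, shiftGL_mulVec hki hzi, shiftGL, tv_mulVec hki (x := Pi.single k s),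
        Pi.single_eq_of_ne hki.symm, mul_zero, Pi.single_zero, add_zero, add_assoc, ← Pi.single_add,
        add_comm t] at h1
    have h1 := congrArg (fun x => proj (pairing (n := n) (F := F)) (fun S => ρ (lower S)) (b t) (g x)) hsum
    simp only [map_smul, map_sum] at h1
    rw [show g y = y from hinv t] at h1
    rw [Finset.sum_eq_single 0, proj_apply_eig hset _ _ (hmem 0), zero_add, sub_self] at h1
    · simp only [hset.zeroL, Finset.sum_const, Finset.card_univ, nsmul_eq_mul, mul_one] at h1
      exact smul_right_injective V hN h1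
    · intro s _ hs
      rw [proj_apply_eig hset _ _ (hmem s), hset.orth _ (sub_ne_zero.2 fun e => hs (add_eq_right.1 (hb e))), zero_smul]
    · simp
  refine ⟨N⁻¹ • pj (b 0), Submodule.smul_mem _ _ ?_, ?_⟩
  · have h1 : pj (b 0) ∈ Wt ρ c (z + Pi.single k 0) := proj_apply_mem hset (b 0) y
    rwa [Pi.single_zero, add_zero] at h1
  · simp only [map_smul, ← hshift, ← Finset.smul_sum, ← hsum, smul_smul, inv_mul_cancel₀ hN, one_smul]

/-- The elementary Weyl element and the torus on a weight space. -/
theorem wk_and_torus {k i : Fin n} (hki : k ≠ i) {z : Fin n → F} (hzk : z k = 0) (hzi : z i ≠ 0)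
    {v : V} (hv : v ∈ Wt ρ c z) :
    ρ (wk k) v = kap c • ∑ t : F, ρ (glSp n (shiftGL hki z t)) v ∧
      ∀ b : Fˣ, ρ (glSp n (dgl k b)) v = eta F (b : F) • v := by
  classical
  obtain ⟨u, hu, hvu⟩ := exists_wk_decomp ρ h2 hR hc hki hzk hzi hv
  obtain ⟨u', hu', huu⟩ := exists_wk_decomp ρ h2 hR hc hki hzk hzi hu
  have hwq : ∀ t w, ρ (wk k) (ρ (glSp n (shiftGL hki z t)) w) =
      ρ (lower (offd i k (t / z i))) (ρ (wk k) w) := fun t w => by
    rw [← Module.End.mul_apply, ← map_mul, shiftGL, wk_mul_tv, map_mul, Module.End.mul_apply]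
  have hwt : ∀ S s w, w ∈ Wt ρ c z → ρ (lower S) (ρ (glSp n (shiftGL hki z s)) w) =
      psi F (c * qval S (z + Pi.single k s)) • ρ (glSp n (shiftGL hki z s)) w := by
    intro S s w hw
    have h1 := glSp_Wt ρ (shiftGL hki z s) hw
    rw [shiftGL_mulVec hki hzi] at h1
    exact mem_Wt ρ |>.1 h1 S
  have key : ∀ (a : F) (b : Fˣ), a ≠ 0 → (b : F) = -a⁻¹ →
      ρ (glSp n (dgl k b)) v = (eta F (-a) * gau (-c)) • u := by
    intro a b ha hb
    have hG : ∀ s, ∑ t : F, psi F (c * (a⁻¹ * (s * s))) * (psi F (c * (a * (t * t))) * psi F (c * (2 * (t * s)))) =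
        eta F (-a) * gau (-c) := by
      intro s
      rw [← gau_mul h2 (neg_ne_zero.2 hc) (neg_ne_zero.2 ha), neg_mul_neg, gau]
      refine Fintype.sum_equiv (Equiv.addRight (s / a)) _ _ fun t => ?_
      rw [← AddChar.map_add_eq_mul, ← AddChar.map_add_eq_mul, Equiv.coe_addRight]
      congr 1
      field_simp
      ring
    have hzero : ∀ a' : F, qval (dsym k a') z = 0 := fun a' => by simp [qval_dsym, hzk]
    have hL : ρ (lower (dsym k a⁻¹) * wk k * lower (dsym k a) * wk k) v =
        (eta F (-a) * gau (-c)) • ρ (wk k) u := by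
      simp only [map_mul, Module.End.mul_apply, hvu, map_sum, hwt _ _ u hu, map_smul, hwq, huu,
        hwt _ _ u' hu', smul_smul, Finset.smul_sum]
      rw [Finset.sum_comm]
      refine Finset.sum_congr rfl fun s _ => ?_
      rw [← Finset.sum_smul, ← hG s]
      congr 1
      refine Finset.sum_congr rfl fun t _ => ?_
      simp only [qval_dsym, qval_offd, Pi.add_apply, Pi.single_eq_same, Pi.single_eq_of_ne hki.symm,
        hzk, zero_add, add_zero]
      rw [show t / z i * (z i * s) = t * s by field_simp]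
      ring
    have hR' : ρ (wk k * lower (dsym k (-a)) * glSp n (dgl k b)) v = ρ (wk k) (ρ (glSp n (dgl k b)) v) := by
      have h1 : ρ (glSp n (dgl k b)) v ∈ Wt ρ c z := by
        have h := glSp_Wt ρ (dgl k b) hv
        rwa [dgl_mulVec, hzk, mul_zero, Function.update_eq_self_iff.2 hzk.symm] at h
      simp only [map_mul, Module.End.mul_apply, mem_Wt ρ |>.1 h1, hzero, mul_zero,
        AddChar.map_zero_eq_one, one_smul]
    rw [wk_braid k ha b hb, hR', ← map_smul] at hL
    have hinj : Function.Injective (ρ (wk k)) := (ρ.apply_bijective (wk k)).1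
    exact hinj hL
  have hu1 : v = gau (-c) • u := by
    have h1 := key (-1) 1 (neg_ne_zero.2 one_ne_zero) (by simp [inv_neg])
    rwa [dgl_one, map_one, map_one, Module.End.one_apply, neg_neg, map_one, one_mul] at h1
  have hu2 : u = kap c • v := by
    rw [hu1, smul_smul, kap, inv_mul_cancel₀ (gau_ne_zero h2 (neg_ne_zero.2 hc)), one_smul]
  refine ⟨?_, fun b => ?_⟩
  · rw [hvu, Finset.smul_sum, hu2]
    simp only [map_smul]
  · have h1 := key (-((b : F)⁻¹)) b (neg_ne_zero.2 (inv_ne_zero b.ne_zero)) (by rw [inv_neg, inv_inv, neg_neg])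
    rw [h1, neg_neg, eta_inv b.ne_zero, ← smul_smul, ← hu1]

end

/-- The elements fixing a basis vector and acting on its weight space by the quadratic character. -/
def Stab (c : F) (i : Fin n) (A : GL (Fin n) F) : Prop :=
  (A : Matrix (Fin n) (Fin n) F) *ᵥ (Pi.single i 1 : Fin n → F) = Pi.single i 1 ∧
    ∀ w ∈ Wt ρ c (Pi.single i (1 : F)), ρ (glSp n A) w = eta F (A : Matrix (Fin n) (Fin n) F).det • w

theorem stab_one (c : F) (i : Fin n) : Stab ρ c i 1 :=
  ⟨by rw [Units.val_one, one_mulVec], fun w _ => by simp⟩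

theorem stab_mul {c : F} {i : Fin n} {A B : GL (Fin n) F} (hA : Stab ρ c i A) (hB : Stab ρ c i B) :
    Stab ρ c i (A * B) := by
  refine ⟨by rw [Units.val_mul, ← mulVec_mulVec, hB.1, hA.1], fun w hw => ?_⟩
  rw [map_mul, map_mul, Module.End.mul_apply, hB.2 w hw, map_smul, hA.2 w hw, smul_smul, ← map_mul,
    Units.val_mul, det_mul, mul_comm (B : Matrix (Fin n) (Fin n) F).det]

section

variable [FiniteDimensional ℂ V] (h2 : (2 : F) ≠ 0) (hR : RankOne ρ) {c : F} (hc : c ≠ 0)
include h2 hR hc

theorem stab_dgl {i : Fin n} (a : Fin n) (b : Fˣ) (ha : a ≠ i) : Stab ρ c i (dgl a b) := by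
  have hz0 : (Pi.single i 1 : Fin n → F) a = 0 := Pi.single_eq_of_ne ha _
  have hz1 : (Pi.single i 1 : Fin n → F) i ≠ 0 := by rw [Pi.single_eq_same]; exact one_ne_zero
  refine ⟨?_, fun w hw => ?_⟩
  · rw [dgl_mulVec, hz0, mul_zero]
    funext l
    rcases eq_or_ne l a with rfl | hl
    · rw [Function.update_self, hz0]
    · rw [Function.update_of_ne hl]
  · rw [det_dgl, (wk_and_torus ρ h2 hR hc (z := (Pi.single i 1 : Fin n → F)) ha hz0 hz1 hw).2]

omit [FiniteDimensional ℂ V] h2 hR hc in
theorem dgl_conj_tv {a b : Fin n} (hab : a ≠ b) (s : F) :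
    dgl b (-1 : Fˣ) * tv hab s * dgl b (-1) = tv hab (-s) := by
  refine Units.ext ?_
  show diagonal _ * Matrix.transvection a b s * diagonal _ = Matrix.transvection a b (-s)
  ext x y
  simp [Matrix.transvection, Matrix.one_apply, Matrix.single_apply, mul_diagonal, diagonal_mul,
    Function.update_apply] <;> grind

theorem stab_tv {i a b : Fin n} (hab : a ≠ b) (r : F) (hb : b ≠ i) : Stab ρ c i (tv hab r) := by
  have hfix : ∀ s : F, (tv hab s : Matrix (Fin n) (Fin n) F) *ᵥ (Pi.single i 1 : Fin n → F) = Pi.single i 1 :=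
    fun s => by rw [tv_mulVec, Pi.single_eq_of_ne hb, mul_zero, Pi.single_zero, add_zero]
  refine ⟨hfix r, fun w hw => ?_⟩
  rw [det_tv, map_one, one_smul]
  set s := r / 2
  haveI : NeZero (2 : F) := ⟨h2⟩
  have hW : ρ (glSp n (tv hab s)) w ∈ Wt ρ c (Pi.single i (1 : F)) := by
    have h1 := glSp_Wt ρ (tv hab s) hw
    rwa [hfix] at h1
  obtain ⟨-, hdw⟩ := stab_dgl ρ h2 hR hc b (-1) hb
  have h1 : ρ (glSp n (tv hab (-s))) w = ρ (glSp n (tv hab s)) w := by
    rw [← dgl_conj_tv hab s, map_mul, map_mul, map_mul, map_mul, Module.End.mul_apply, Module.End.mul_apply,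
      hdw w hw, map_smul, map_smul, hdw _ hW, smul_smul, det_dgl]
    simp [eta_neg_one_sq]
  have h3 := congrArg (ρ (glSp n (tv hab s))) h1
  rw [← Module.End.mul_apply, ← map_mul, ← map_mul, tv_mul, add_neg_cancel, tv_zero, map_one, map_one,
    Module.End.one_apply, ← Module.End.mul_apply, ← map_mul, ← map_mul, tv_mul, add_halves] at h3
  exact h3.symm

theorem stab_block {i : Fin n} (M : Matrix {j : Fin n // j ≠ i} {j : Fin n // j ≠ i} F) (hM : M.det ≠ 0)
    (B : GL (Fin n) F)
    (hB : ∀ a b, (B : Matrix (Fin n) (Fin n) F) a b =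
      if h : a ≠ i ∧ b ≠ i then M ⟨a, h.1⟩ ⟨b, h.2⟩ else if a = b then 1 else 0) :
    Stab ρ c i B := by
  classical
  let σ : {j : Fin n // j ≠ i} ⊕ {j : Fin n // ¬ j ≠ i} ≃ Fin n := Equiv.sumCompl _
  let ext' := extendHom (R := F) σ
  have hext : ∀ M a b, ext' M a b = if h : a ≠ i ∧ b ≠ i then M ⟨a, h.1⟩ ⟨b, h.2⟩ else if a = b then 1 else 0 := by
    intro M a b
    by_cases ha : a ≠ i <;> by_cases hb : b ≠ i
    · simp [ext', extendHom, σ, Equiv.sumCompl_symm_apply_of_pos, ha, hb]
    · push Not at hb; subst hb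
      simp [ext', extendHom, σ, Equiv.sumCompl_symm_apply_of_pos, Equiv.sumCompl_symm_apply_of_neg, ha]
    · push Not at ha; subst ha
      simp [ext', extendHom, σ, Equiv.sumCompl_symm_apply_of_pos, Equiv.sumCompl_symm_apply_of_neg, hb, Ne.symm hb]
    · push Not at ha hb; subst ha; subst hb
      simp [ext', extendHom, σ, Equiv.sumCompl_symm_apply_of_neg]
  have hB' : (B : Matrix (Fin n) (Fin n) F) = ext' M := Matrix.ext fun a b => (hB a b).trans (hext M a b).symm
  clear hB
  revert B
  refine diagonal_transvection_induction_of_det_ne_zero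
    (fun M => ∀ B : GL (Fin n) F, (B : Matrix (Fin n) (Fin n) F) = ext' M → Stab ρ c i B) M hM ?_ ?_ ?_
  · intro D hD B hB
    have hD0 : ∀ j, D j ≠ 0 := fun j => by
      rw [det_diagonal] at hD; exact (Finset.prod_ne_zero_iff.1 hD) j (Finset.mem_univ _)
    suffices h : ∀ s : Finset {j : Fin n // j ≠ i}, ∀ C : GL (Fin n) F,
        (C : Matrix (Fin n) (Fin n) F) = ext' (diagonal fun j => if j ∈ s then D j else 1) → Stab ρ c i C from
      h Finset.univ B (by simpa using hB)
    intro s
    induction s using Finset.induction with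
    | empty =>
      intro C hC
      obtain rfl : C = 1 := Units.ext (by simp [hC, diagonal_one])
      exact stab_one ρ c i
    | @insert a s ha ih =>
      intro C hC
      set u : Fˣ := Units.mk0 (D a) (hD0 a)
      have h1 := ih (C * dgl (a : Fin n) u⁻¹) (by
        rw [Units.val_mul, hC]
        ext x y
        show ((ext' _ * diagonal _ : Matrix (Fin n) (Fin n) F)) x y = _
        rw [mul_diagonal, hext, hext]
        by_cases hy : y = (a : Fin n)
        · subst hy
          have ha2 := a.2
          by_cases hx : x = (a : Fin n)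
          · subst hx; simp [ha2, ha, u, hD0 a]
          · have hx' : ∀ h : x ≠ i, (⟨x, h⟩ : {j : Fin n // j ≠ i}) ≠ a := fun h e => hx (congrArg Subtype.val e)
            by_cases hxi : x = i <;> simp [ha2, hx, hxi, hx', Ne.symm ha2]
        · have hy' : ∀ h : y ≠ i, (⟨y, h⟩ : {j : Fin n // j ≠ i}) ≠ a := fun h e => hy (congrArg Subtype.val e)
          simp [hy, Matrix.diagonal_apply]
          grind)
      have h3 := stab_mul ρ h1 (stab_dgl ρ h2 hR hc (a : Fin n) u a.2)
      have he' : dgl (a : Fin n) u⁻¹ * dgl (a : Fin n) u = 1 := Units.ext (by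
        show diagonal _ * diagonal _ = (1 : Matrix (Fin n) (Fin n) F)
        rw [diagonal_mul_diagonal, ← diagonal_one]
        congr 1; funext l
        rcases eq_or_ne l (a : Fin n) with rfl | hl <;> simp [*])
      rwa [mul_assoc, he', mul_one] at h3
  · intro t B hB
    obtain ⟨a, b, hab, r⟩ := t
    have hab' : (a : Fin n) ≠ b := fun e => hab (Subtype.ext e)
    obtain rfl : B = tv hab' r := Units.ext (by
      rw [hB]
      ext x y
      rw [hext]
      simp [tv, TransvectionStruct.toMatrix, Matrix.transvection, Matrix.one_apply, Matrix.single_apply]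
      grind)
    exact stab_tv ρ h2 hR hc hab' r b.2
  · intro M N hM hN hPM hPN B hB
    have hdet : ∀ {L}, L.det ≠ 0 → (ext' L).det ≠ 0 := fun hL => by rwa [det_extendHom]
    have : B = GeneralLinearGroup.mkOfDetNeZero _ (hdet hM) * GeneralLinearGroup.mkOfDetNeZero _ (hdet hN) :=
      Units.ext (hB.trans (map_mul ext' M N))
    rw [this]
    exact stab_mul ρ (hPM _ rfl) (hPN _ rfl)

theorem stab_row {i : Fin n} (s : Finset (Fin n)) : i ∉ s → ∀ (r : Fin n → F) (C : GL (Fin n) F),
    (C : Matrix (Fin n) (Fin n) F) = 1 + ∑ b ∈ s, Matrix.single i b (r b) → Stab ρ c i C := by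
  induction s using Finset.induction with
  | empty =>
    intro _ r C hC
    obtain rfl : C = 1 := Units.ext (by simp [hC])
    exact stab_one ρ c i
  | @insert a s ha ih =>
    intro hi r C hC
    rw [Finset.mem_insert, not_or] at hi
    have h1 := ih hi.2 r (C * tv hi.1 (-r a)) (by
      rw [Units.val_mul, hC]
      show _ * Matrix.transvection i a (-r a) = _
      have h0 : ∀ b, b ≠ i → Matrix.single i b (r b) * Matrix.single i a (-r a) = (0 : Matrix (Fin n) (Fin n) F) :=
        fun b hb => Matrix.single_mul_single_of_ne _ _ _ _ hb _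
      rw [Finset.sum_insert ha, Matrix.transvection, mul_add, mul_one, add_mul, one_mul, add_mul,
        Finset.sum_mul, h0 a (Ne.symm hi.1), Finset.sum_eq_zero fun b hb => h0 b fun e => hi.2 (e ▸ hb)]
      have : (Matrix.single i a (-r a) : Matrix (Fin n) (Fin n) F) = -Matrix.single i a (r a) := by
        ext x y; simp [Matrix.single_apply, neg_ite]
      rw [this]
      abel)
    have h3 := stab_mul ρ h1 (stab_tv ρ h2 hR hc hi.1 (r a) (Ne.symm hi.1))
    rwa [mul_assoc, tv_mul, neg_add_cancel, tv_zero, mul_one] at h3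

/-- The stabiliser of a weight acts by the quadratic character of the determinant. -/
theorem stab_Wt (i : Fin n) (A : GL (Fin n) F)
    (hA : (A : Matrix (Fin n) (Fin n) F) *ᵥ (Pi.single i 1 : Fin n → F) = Pi.single i 1)
    {v : V} (hv : v ∈ Wt ρ c (Pi.single i (1 : F))) :
    ρ (glSp n A) v = eta F (A : Matrix (Fin n) (Fin n) F).det • v := by
  classical
  have hcol : ∀ a, (A : Matrix (Fin n) (Fin n) F) a i = if a = i then 1 else 0 := fun a => by
    have h1 := congrFun hA a
    rw [mulVec_single_one, Pi.single_apply] at h1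
    exact h1
  let M : Matrix {j : Fin n // j ≠ i} {j : Fin n // j ≠ i} F :=
    (A : Matrix (Fin n) (Fin n) F).submatrix Subtype.val Subtype.val
  let R : Matrix (Fin n) (Fin n) F :=
    1 + ∑ b ∈ (Finset.univ : Finset (Fin n)).erase i, Matrix.single i b ((A : Matrix (Fin n) (Fin n) F) i b)
  let E : Matrix (Fin n) (Fin n) F := Matrix.of fun a b =>
    if h : a ≠ i ∧ b ≠ i then M ⟨a, h.1⟩ ⟨b, h.2⟩ else if a = b then 1 else 0
  have hRab : ∀ a b, R a b = if a = i then (A : Matrix (Fin n) (Fin n) F) i b else if a = b then 1 else 0 := by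
    intro a b
    simp only [R, Matrix.add_apply, Matrix.sum_apply, Matrix.single_apply, Matrix.one_apply]
    by_cases ha : a = i
    · subst ha
      by_cases hb : b = a
      · subst hb; simp [hcol]
      · simp [Ne.symm hb, hb]
    · simp [ha, Ne.symm ha]
  have hAR : (A : Matrix (Fin n) (Fin n) F) = E * R := by
    ext a b
    rw [Matrix.mul_apply]
    simp only [hRab, E, Matrix.of_apply]
    by_cases ha : a = i
    · subst ha
      rw [Finset.sum_eq_single a]
      · simp
      · intro x _ hx; simp [Ne.symm hx]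
      · simp
    · rw [Finset.sum_eq_single b]
      · by_cases hb : b = i
        · subst hb; simp [hcol, ha]
        · simp [M, ha, hb]
      · intro x _ hx
        by_cases hxi : x = i
        · subst hxi; simp [ha]
        · simp [hxi, hx]
      · simp
  have hdetA : (A : Matrix (Fin n) (Fin n) F).det ≠ 0 := ((Matrix.isUnit_iff_isUnit_det _).1 A.isUnit).ne_zero
  rw [hAR, det_mul] at hdetA
  let σ : {j : Fin n // j ≠ i} ⊕ {j : Fin n // ¬ j ≠ i} ≃ Fin n := Equiv.sumCompl _
  have hEM : E = extendHom (R := F) σ M := by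
    ext a b
    simp only [E, Matrix.of_apply]
    by_cases ha : a ≠ i <;> by_cases hb : b ≠ i
    · simp [extendHom, σ, Equiv.sumCompl_symm_apply_of_pos, ha, hb]
    · push Not at hb; subst hb
      simp [extendHom, σ, Equiv.sumCompl_symm_apply_of_pos, Equiv.sumCompl_symm_apply_of_neg, ha]
    · push Not at ha; subst ha
      simp [extendHom, σ, Equiv.sumCompl_symm_apply_of_pos, Equiv.sumCompl_symm_apply_of_neg, hb, Ne.symm hb]
    · push Not at ha hb; subst ha; subst hb
      simp [extendHom, σ, Equiv.sumCompl_symm_apply_of_neg]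
  have hM : M.det ≠ 0 := by
    have := left_ne_zero_of_mul hdetA
    rwa [hEM, det_extendHom] at this
  have hPA : Stab ρ c i A := by
    have : A = GeneralLinearGroup.mkOfDetNeZero E (left_ne_zero_of_mul hdetA) *
        GeneralLinearGroup.mkOfDetNeZero R (right_ne_zero_of_mul hdetA) := Units.ext hAR
    rw [this]
    exact stab_mul ρ (stab_block ρ h2 hR hc M hM _ fun a b => rfl)
      (stab_row ρ h2 hR hc _ (Finset.notMem_erase _ _) _ _ rfl)
  exact hPA.2 v hv

end

end CfsgLib.Generators.SpWeil
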